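import Mathlib
import Cfsg.Agent.Lib.Helper24.FP.T2
import Cfsg.Agent.Lib.Helper90.BrauerWielandt

/-!
# Generic tools for S3814 package P7 (PkgE), helper22
-/

set_option autoImplicit false

namespace Cfsg.Agent.Lib.Helper22.FP

/-- In a cyclic group of prime order every nontrivial element is a generator. -/
theorem mem_zpowers_of_prime {G : Type*} [Group G] {m k : G} {p : ℕ} (hp : p.Prime)
    (hm : orderOf m = p) (hk : k ∈ Subgroup.zpowers m) (hk1 : k ≠ 1) :
    m ∈ Subgroup.zpowers k := by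
  haveI : Fact p.Prime := ⟨hp⟩
  have hcard : Nat.card (Subgroup.zpowers m) = p := by rw [Nat.card_zpowers, hm]
  have h1 : (⟨k, hk⟩ : Subgroup.zpowers m) ≠ 1 := fun h => hk1 (congrArg Subtype.val h)
  have h2 := zpowers_eq_top_of_prime_card hcard h1
  have h3 : (⟨m, Subgroup.mem_zpowers m⟩ : Subgroup.zpowers m) ∈
      Subgroup.zpowers (⟨k, hk⟩ : Subgroup.zpowers m) := by
    rw [h2]; exact Subgroup.mem_top _
  obtain ⟨i, hi⟩ := Subgroup.mem_zpowers_iff.mp h3
  refine Subgroup.mem_zpowers_iff.mpr ⟨i, ?_⟩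
  have := congrArg Subtype.val hi
  simpa using this

/-- an element commuting with `x` and `y` commutes with `closure {x, y}` -/
theorem closure_pair_comm {G : Type*} [Group G] {x y g e : G}
    (hgx : g * x = x * g) (hgy : g * y = y * g)
    (he : e ∈ Subgroup.closure ({x, y} : Set G)) : g * e = e * g := by
  have hle : Subgroup.closure ({x, y} : Set G) ≤ Subgroup.centralizer ({g} : Set G) := by
    rw [Subgroup.closure_le]
    intro u hu
    rw [SetLike.mem_coe, Subgroup.mem_centralizer_iff]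
    intro h hh
    rw [Set.mem_singleton_iff.mp hh]
    rcases hu with rfl | hu
    · exact hgx
    · rw [Set.mem_singleton_iff.mp hu]; exact hgy
  have h1 := Subgroup.mem_centralizer_iff.mp (hle he) g rfl
  exact h1

/-- `closure {x, y}` has exponent `p` if `x`, `y` commute and have `p`-th power `1`. -/
theorem closure_pair_pow {G : Type*} [Group G] {x y e : G} {p : ℕ} (hxy : x * y = y * x)
    (hx : x ^ p = 1) (hy : y ^ p = 1) (he : e ∈ Subgroup.closure ({x, y} : Set G)) :
    e ^ p = 1 := by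
  refine Subgroup.closure_induction (p := fun e _ => e ^ p = 1) ?_ ?_ ?_ ?_ he
  · intro u hu
    rcases hu with rfl | hu
    · exact hx
    · rw [Set.mem_singleton_iff.mp hu]; exact hy
  · exact one_pow p
  · intro u v hu hv hup hvp
    have h1 : u * x = x * u := (closure_pair_comm (g := x) rfl hxy hu).symm
    have h2 : u * y = y * u := (closure_pair_comm (g := y) hxy.symm rfl hu).symm
    have h3 : Commute u v := closure_pair_comm h1 h2 hv
    rw [h3.mul_pow, hup, hvp, one_mul]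
  · intro u _ hup
    rw [inv_pow, hup, inv_one]

/-- (T1) two commuting elements of prime order `p` generating a `C_p × C_p`, acting on a
nontrivial `p'`-subgroup `W`: some nontrivial element of `⟨x, y⟩` has a nontrivial fixed point. -/
theorem t1 {G : Type*} [Group G] [Finite G] {p : ℕ} (hp : p.Prime) (x y : G)
    (hxy : x * y = y * x) (hx : orderOf x = p) (hy : orderOf y = p)
    (hyx : y ∉ Subgroup.zpowers x) (W : Subgroup G) (hW : W ≠ ⊥) (hpW : ¬ p ∣ Nat.card W)
    (hxW : ∀ w ∈ W, x * w * x⁻¹ ∈ W) (hyW : ∀ w ∈ W, y * w * y⁻¹ ∈ W) :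
    ∃ e ∈ Subgroup.closure ({x, y} : Set G), e ≠ 1 ∧ ∃ w ∈ W, w ≠ 1 ∧ e * w = w * e := by
  haveI : Fact p.Prime := ⟨hp⟩
  by_contra hcon
  push_neg at hcon
  have hxE : x ∈ Subgroup.closure ({x, y} : Set G) := Subgroup.subset_closure (by simp)
  have hyE : y ∈ Subgroup.closure ({x, y} : Set G) := Subgroup.subset_closure (by simp)
  have key : ∀ e ∈ Subgroup.closure ({x, y} : Set G), e ≠ 1 →
      W ⊓ Subgroup.centralizer ({e} : Set G) = ⊥ := by
    intro e he he1
    rw [eq_bot_iff]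
    intro w hw
    rw [Subgroup.mem_bot]
    by_contra hw1
    obtain ⟨hwW, hwc⟩ := Subgroup.mem_inf.mp hw
    exact hcon e he he1 w hwW hw1 (Subgroup.mem_centralizer_iff.mp hwc e rfl)
  have hxp : x ^ p = 1 := by rw [← hx]; exact pow_orderOf_eq_one x
  have hyp : y ^ p = 1 := by rw [← hy]; exact pow_orderOf_eq_one y
  have hx1 : x ≠ 1 := by
    rintro rfl
    rw [orderOf_one] at hx
    exact hp.ne_one hx.symm
  have hbw := Cfsg.Agent.Lib.Helper90.brauer_wielandt (p := p) x y hxy hxp hyp W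
    (Cfsg.Agent.Lib.Helper24.FP.mem_normalizer_of_conj_mem W x hxW)
    (Cfsg.Agent.Lib.Helper24.FP.mem_normalizer_of_conj_mem W y hyW) hpW
  unfold Cfsg.Agent.Lib.Helper90.BWFormula at hbw
  have hf : ∀ i : ℕ, W ⊓ Subgroup.centralizer ({x ^ i * y} : Set G) = ⊥ := by
    intro i
    apply key _ (Subgroup.mul_mem _ (Subgroup.pow_mem _ hxE i) hyE)
    intro h
    apply hyx
    have : y = (x ^ i)⁻¹ := eq_inv_of_mul_eq_one_right h
    rw [this]
    exact Subgroup.inv_mem _ (Subgroup.pow_mem _ (Subgroup.mem_zpowers x) i)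
  have hf2 : W ⊓ Subgroup.centralizer ({x, y} : Set G) = ⊥ := by
    rw [eq_bot_iff, ← key x hxE hx1]
    exact inf_le_inf_left W (Subgroup.centralizer_le (by simp))
  rw [hf2, key x hxE hx1] at hbw
  simp only [hf, Subgroup.card_bot, Finset.prod_const_one, one_pow, mul_one] at hbw
  exact hW (Subgroup.card_eq_one.mp hbw.symm)

/-- product decomposition of `N ⊔ D` when `D` normalizes `N` -/
theorem mem_sup_of_normalizes {G : Type*} [Group G] (N D : Subgroup G)
    (h : ∀ d ∈ D, ∀ n ∈ N, d * n * d⁻¹ ∈ N) {g : G} (hg : g ∈ N ⊔ D) :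
    ∃ n ∈ N, ∃ d ∈ D, g = n * d := by
  let S : Subgroup G :=
    { carrier := {g | ∃ n ∈ N, ∃ d ∈ D, g = n * d}
      mul_mem' := by
        rintro _ _ ⟨n1, hn1, d1, hd1, rfl⟩ ⟨n2, hn2, d2, hd2, rfl⟩
        exact ⟨n1 * (d1 * n2 * d1⁻¹), N.mul_mem hn1 (h d1 hd1 n2 hn2), d1 * d2,
          D.mul_mem hd1 hd2, by group⟩
      one_mem' := ⟨1, N.one_mem, 1, D.one_mem, by simp⟩
      inv_mem' := by
        rintro _ ⟨n, hn, d, hd, rfl⟩
        exact ⟨d⁻¹ * n⁻¹ * d⁻¹⁻¹, h d⁻¹ (D.inv_mem hd) n⁻¹ (N.inv_mem hn), d⁻¹,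
          D.inv_mem hd, by group⟩ }
  have hle : N ⊔ D ≤ S :=
    sup_le (fun n hn => ⟨n, hn, 1, D.one_mem, by simp⟩)
      (fun d hd => ⟨1, N.one_mem, d, hd, by simp⟩)
  exact hle hg

/-- a nontrivial `p`-subgroup has a central element of order `p` -/
theorem exists_central_of_pgroup {G : Type*} [Group G] [Finite G] {p : ℕ} (hp : p.Prime)
    (R : Subgroup G) (hR : IsPGroup p R) (hne : R ≠ ⊥) :
    ∃ m ∈ R, orderOf m = p ∧ ∀ r ∈ R, m * r = r * m := by
  haveI : Fact p.Prime := ⟨hp⟩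
  haveI : Nontrivial R := (Subgroup.nontrivial_iff_ne_bot R).mpr hne
  haveI hZ : Nontrivial (Subgroup.center R) := hR.center_nontrivial
  have hZp : IsPGroup p (Subgroup.center R) := hR.to_subgroup _
  obtain ⟨k, hk⟩ := IsPGroup.iff_card.mp hZp
  have hk0 : k ≠ 0 := by
    rintro rfl
    rw [pow_zero] at hk
    have := Finite.one_lt_card_iff_nontrivial.mpr hZ
    omega
  have hdvd : p ∣ Nat.card (Subgroup.center R) := by rw [hk]; exact dvd_pow_self p hk0
  obtain ⟨z, hz⟩ := exists_prime_orderOf_dvd_card' p hdvd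
  refine ⟨((z : R) : G), (z : R).2, ?_, ?_⟩
  · rw [Subgroup.orderOf_coe, Subgroup.orderOf_coe, hz]
  · intro r hr
    have h1 := Subgroup.mem_center_iff.mp z.2 ⟨r, hr⟩
    have h2 := congrArg Subtype.val h1
    exact h2.symm

/-- an element of order dividing the prime `c` normalizing but not centralizing a cyclic group
of prime order `b` forces `c ∣ b - 1`. -/
theorem dvd_sub_one_of_act {G : Type*} [Group G] (e m : G) (b c : ℕ) (hb : b.Prime)
    (hc : c.Prime) (hm : orderOf m = b) (he : e ^ c = 1)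
    (hem : e * m * e⁻¹ ∈ Subgroup.zpowers m) (hne : e * m ≠ m * e) : c ∣ b - 1 := by
  haveI : Fact b.Prime := ⟨hb⟩
  haveI : Fact c.Prime := ⟨hc⟩
  have hfin : IsOfFinOrder m := orderOf_pos_iff.mp (by rw [hm]; exact hb.pos)
  obtain ⟨i, hi⟩ := (Submonoid.mem_powers_iff _ _).mp (hfin.mem_powers_iff_mem_zpowers.mpr hem)
  have hpow : ∀ k : ℕ, e ^ k * m * (e ^ k)⁻¹ = m ^ (i ^ k) := by
    intro k
    induction k with
    | zero => simp
    | succ k ih =>
      have h1 : e ^ (k + 1) * m * (e ^ (k + 1))⁻¹ = e * (e ^ k * m * (e ^ k)⁻¹) * e⁻¹ := by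
        rw [pow_succ']; group
      rw [h1, ih, ← conj_pow, ← hi, ← pow_mul, ← pow_succ']
  have h2 : m ^ (i ^ c) = m ^ 1 := by
    rw [← hpow c, he]; simp
  have h3 : i ^ c ≡ 1 [MOD b] := by
    rw [← hm]; exact pow_eq_pow_iff_modEq.mp h2
  have h4 : ¬ i ≡ 1 [MOD b] := by
    intro h
    apply hne
    have h5 : m ^ i = m ^ 1 := by
      apply pow_eq_pow_iff_modEq.mpr
      rw [hm]; exact h
    rw [pow_one, hi] at h5
    calc e * m = e * m * e⁻¹ * e := by group
      _ = m * e := by rw [h5]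
  have h6 : ((i : ℕ) : ZMod b) ^ c = 1 := by
    have := (ZMod.natCast_eq_natCast_iff _ _ _).mpr h3
    push_cast at this
    exact this
  have h7 : ((i : ℕ) : ZMod b) ≠ 1 := by
    intro h
    apply h4
    apply (ZMod.natCast_eq_natCast_iff _ _ _).mp
    rw [h]; simp
  have h8 : orderOf ((i : ℕ) : ZMod b) = c := orderOf_eq_prime h6 h7
  have h9 : ((i : ℕ) : ZMod b) ≠ 0 := by
    intro h
    rw [h, zero_pow hc.ne_zero] at h6
    exact zero_ne_one h6
  have h10 := ZMod.pow_card_sub_one_eq_one h9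
  rw [← h8]
  exact orderOf_dvd_of_pow_eq_one h10

/-- naming the other two elements of a three-element set -/
theorem three (π : Finset ℕ) (h : π.card = 3) (a : ℕ) (ha : a ∈ π) :
    ∃ b ∈ π, ∃ c ∈ π, a ≠ b ∧ a ≠ c ∧ b ≠ c ∧ ∀ p ∈ π, p = a ∨ p = b ∨ p = c := by
  obtain ⟨x, y, z, hxy, hxz, hyz, rfl⟩ := Finset.card_eq_three.mp h
  simp only [Finset.mem_insert, Finset.mem_singleton] at ha
  rcases ha with rfl | rfl | rfl
  · exact ⟨y, by simp, z, by simp, hxy, hxz, hyz, fun p hp => by simpa using hp⟩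
  · refine ⟨x, by simp, z, by simp, hxy.symm, hyz, hxz, fun p hp => ?_⟩
    simp only [Finset.mem_insert, Finset.mem_singleton] at hp
    tauto
  · refine ⟨x, by simp, y, by simp, hxz.symm, hyz.symm, hxy, fun p hp => ?_⟩
    simp only [Finset.mem_insert, Finset.mem_singleton] at hp
    tauto

end Cfsg.Agent.Lib.Helper22.FP
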