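import Mathlib
import Cfsg.Agent.Lib.Helper80.FP.NFDefs
import Cfsg.Agent.Lib.Helper22.FP.ETools
import Cfsg.Agent.Lib.Helper22.CharP
import Cfsg.Agent.Lib.Helper53.Basic

/-!
# S3814 package P10-A: `PkgCoreA` (helper22, following helper80's proof, team note 3860)
-/

set_option autoImplicit false
set_option maxHeartbeats 1600000

namespace Cfsg.Agent.Lib.Helper22.FP

open Cfsg.Agent.Lib.Helper80.FP

universe u

/-- the properties of one of the two fixed-point predicates -/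
structure FPred (Λ : Type u) [Group Λ] (p p' : ℕ) (F : Λ → Prop) : Prop where
  conj : ∀ g x : Λ, F x → F (g * x * g⁻¹)
  pow : ∀ (x : Λ) (j : ℕ), F x → F (x ^ j)
  one : F 1
  t1 : ∀ ℓ : ℕ, ℓ.Prime → ∀ e x y : Λ, F e → orderOf x = ℓ → orderOf y = ℓ → x * y = y * x →
    y ∉ Subgroup.zpowers x → x * e = e * x → y * e = e * y →
    ∃ k ∈ Subgroup.closure ({x, y} : Set Λ), k ≠ 1 ∧ F (k * e)
  no : ∀ x : Λ, orderOf x = p * p' → ¬ F x

theorem fpredV {Λ : Type u} [Group Λ] {p p' : ℕ} {FV FU : Λ → Prop} (h : Abs Λ p p' FV FU) :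
    FPred Λ p p' FV := ⟨h.conjV, h.powV, h.oneV, h.t1V, h.noV⟩

theorem fpredU {Λ : Type u} [Group Λ] {p p' : ℕ} {FV FU : Λ → Prop} (h : Abs Λ p p' FV FU) :
    FPred Λ p p' FU := ⟨h.conjU, h.powU, h.oneU, h.t1U, h.noU⟩

/-- elements of `closure {x, y}` for commuting `x`, `y` -/
theorem mem_closure_pair_comm {G : Type*} [Group G] {x y e : G} (hxy : x * y = y * x)
    (he : e ∈ Subgroup.closure ({x, y} : Set G)) : ∃ a b : ℤ, e = x ^ a * y ^ b := by
  refine Subgroup.closure_induction (p := fun e _ => ∃ a b : ℤ, e = x ^ a * y ^ b) ?_ ?_ ?_ ?_ he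
  · intro u hu
    rcases hu with rfl | hu
    · exact ⟨1, 0, by simp⟩
    · rw [Set.mem_singleton_iff.mp hu]; exact ⟨0, 1, by simp⟩
  · exact ⟨0, 0, by simp⟩
  · rintro u v _ _ ⟨a, b, rfl⟩ ⟨a', b', rfl⟩
    refine ⟨a + a', b + b', ?_⟩
    have hc : y ^ b * x ^ a' = x ^ a' * y ^ b :=
      (Commute.zpow_zpow (show Commute y x from hxy.symm) b a').eq
    calc x ^ a * y ^ b * (x ^ a' * y ^ b') = x ^ a * (y ^ b * x ^ a') * y ^ b' := by group
      _ = x ^ a * (x ^ a' * y ^ b) * y ^ b' := by rw [hc]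
      _ = x ^ (a + a') * y ^ (b + b') := by rw [zpow_add, zpow_add]; group
  · rintro u _ ⟨a, b, rfl⟩
    refine ⟨-a, -b, ?_⟩
    have hc : y ^ (-b) * x ^ (-a) = x ^ (-a) * y ^ (-b) :=
      (Commute.zpow_zpow (show Commute y x from hxy.symm) (-b) (-a)).eq
    rw [mul_inv_rev, ← zpow_neg, ← zpow_neg, hc]

/-- no `C_p × C_p` is centralized by a `C_p' × C_p'` -/
theorem no_pair {Λ : Type u} [Group Λ] {p p' : ℕ} {F : Λ → Prop} (hF : FPred Λ p p' F)
    (hp : p.Prime) (hp' : p'.Prime) (hne : p ≠ p') (w z x' y' : Λ)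
    (hw : orderOf w = p) (hz : orderOf z = p) (hwz : w * z = z * w)
    (hzn : z ∉ Subgroup.zpowers w)
    (hx' : orderOf x' = p') (hy' : orderOf y' = p') (hxy' : x' * y' = y' * x')
    (hyn' : y' ∉ Subgroup.zpowers x')
    (hwx : w * x' = x' * w) (hwy : w * y' = y' * w) (hzx : z * x' = x' * z)
    (hzy : z * y' = y' * z) : False := by
  haveI : Fact p.Prime := ⟨hp⟩
  haveI : Fact p'.Prime := ⟨hp'⟩
  obtain ⟨k', hk'E, hk'1, hk'F⟩ := hF.t1 p' hp' 1 x' y' hF.one hx' hy' hxy' hyn' (by simp)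
    (by simp)
  rw [mul_one] at hk'F
  have hk'o : orderOf k' = p' :=
    orderOf_eq_prime (closure_pair_pow hxy' (by rw [← hx']; exact pow_orderOf_eq_one x')
      (by rw [← hy']; exact pow_orderOf_eq_one y') hk'E) hk'1
  have hwk' : w * k' = k' * w := closure_pair_comm hwx hwy hk'E
  have hzk' : z * k' = k' * z := closure_pair_comm hzx hzy hk'E
  obtain ⟨k, hkE, hk1, hkF⟩ := hF.t1 p hp k' w z hk'F hw hz hwz hzn hwk' hzk'
  have hko : orderOf k = p :=
    orderOf_eq_prime (closure_pair_pow hwz (by rw [← hw]; exact pow_orderOf_eq_one w)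
      (by rw [← hz]; exact pow_orderOf_eq_one z) hkE) hk1
  have hkk' : k' * k = k * k' := closure_pair_comm hwk'.symm hzk'.symm hkE
  have ho : orderOf (k * k') = p * p' := by
    rw [(show Commute k k' from hkk'.symm).orderOf_mul_eq_mul_orderOf_of_coprime
      (by rw [hko, hk'o]; exact (Nat.coprime_primes hp hp').mpr hne), hko, hk'o]
  exact hF.no _ ho hkF

/-- (A2) a central element `w` of order `p` commuting with a `C_p' × C_p'`: no nontrivial power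
of `w` has a fixed point -/
theorem not_F_of_central {Λ : Type u} [Group Λ] [Finite Λ] {p p' : ℕ} {F : Λ → Prop}
    (hF : FPred Λ p p' F) (hp : p.Prime) (hp' : p'.Prime) (hne : p ≠ p') (w x' y' : Λ)
    (hw : orderOf w = p) (hx' : orderOf x' = p') (hy' : orderOf y' = p')
    (hxy' : x' * y' = y' * x') (hyn' : y' ∉ Subgroup.zpowers x')
    (hwx : w * x' = x' * w) (hwy : w * y' = y' * w) :
    ∀ u ∈ Subgroup.zpowers w, u ≠ 1 → ¬ F u := by
  haveI : Fact p.Prime := ⟨hp⟩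
  haveI : Fact p'.Prime := ⟨hp'⟩
  intro u hu hu1 hFu
  have hwu : w ∈ Subgroup.zpowers u := mem_zpowers_of_prime hp hw hu hu1
  obtain ⟨j, hj⟩ := (Submonoid.mem_powers_iff _ _).mp (mem_powers_iff_mem_zpowers.mpr hwu)
  have hFw : F w := hj ▸ hF.pow u j hFu
  obtain ⟨k', hk'E, hk'1, hk'F⟩ := hF.t1 p' hp' w x' y' hFw hx' hy' hxy' hyn' hwx.symm
    hwy.symm
  have hk'o : orderOf k' = p' :=
    orderOf_eq_prime (closure_pair_pow hxy' (by rw [← hx']; exact pow_orderOf_eq_one x')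
      (by rw [← hy']; exact pow_orderOf_eq_one y') hk'E) hk'1
  have hwk' : w * k' = k' * w := closure_pair_comm hwx hwy hk'E
  have ho : orderOf (k' * w) = p * p' := by
    rw [(show Commute k' w from hwk'.symm).orderOf_mul_eq_mul_orderOf_of_coprime
      (by rw [hk'o, hw]; exact (Nat.coprime_primes hp' hp).mpr hne.symm), hk'o, hw, mul_comm]
  exact hF.no _ ho hk'F

/-- (Conj) -/
theorem F_of_conj {Λ : Type u} [Group Λ] [Finite Λ] {p p' : ℕ} {F : Λ → Prop}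
    (hF : FPred Λ p p' F) (hp : p.Prime) (w : Λ) (hw : orderOf w = p)
    (hA2 : ∀ u ∈ Subgroup.zpowers w, u ≠ 1 → ¬ F u)
    (d' g c : Λ) (hd' : orderOf d' = p) (hdw : d' * w = w * d')
    (hdn : d' ∉ Subgroup.zpowers w) (hgw : g * w = w * g) (hc : c ∈ Subgroup.zpowers w)
    (hc1 : c ≠ 1) (hgd : g * d' * g⁻¹ = c * d') : F d' := by
  haveI : Fact p.Prime := ⟨hp⟩
  obtain ⟨k, hkE, hk1, hkF⟩ := hF.t1 p hp 1 w d' hF.one hw hd' hdw.symm hdn (by simp) (by simp)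
  rw [mul_one] at hkF
  obtain ⟨a, b, hkab⟩ := mem_closure_pair_comm hdw.symm hkE
  obtain ⟨d2, hd2⟩ : ∃ d2 : Λ, d2 = d' ^ b := ⟨_, rfl⟩
  obtain ⟨c2, hc2⟩ : ∃ c2 : Λ, c2 = c ^ b := ⟨_, rfl⟩
  have hwp : w ^ p = 1 := by rw [← hw]; exact pow_orderOf_eq_one w
  have hcp : c ^ p = 1 := by
    obtain ⟨i, hi⟩ := Subgroup.mem_zpowers_iff.mp hc
    rw [← hi, ← zpow_natCast, ← zpow_mul, mul_comm, zpow_mul, zpow_natCast, hwp, one_zpow]
  have hco : orderOf c = p := orderOf_eq_prime hcp hc1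
  have hd21 : d2 ≠ 1 := by
    intro h
    apply hA2 k _ hk1 hkF
    rw [hkab, ← hd2, h, mul_one]
    exact Subgroup.zpow_mem _ (Subgroup.mem_zpowers w) a
  have hc21 : c2 ≠ 1 := by
    intro h
    apply hd21
    rw [hc2] at h
    rw [hd2]
    have h1 : (orderOf c : ℤ) ∣ b := orderOf_dvd_iff_zpow_eq_one.mpr h
    rw [hco, ← hd'] at h1
    exact orderOf_dvd_iff_zpow_eq_one.mp h1
  have hcd : Commute c d' := by
    obtain ⟨i, hi⟩ := Subgroup.mem_zpowers_iff.mp hc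
    rw [← hi]
    exact (Commute.zpow_left (show Commute w d' from hdw.symm) i)
  have hgd2 : g * d2 * g⁻¹ = c2 * d2 := by
    rw [hd2, hc2, ← conj_zpow, hgd, hcd.mul_zpow]
  have hc2w : c2 ∈ Subgroup.zpowers w := by rw [hc2]; exact Subgroup.zpow_mem _ hc b
  have hgc2 : Commute g c2 := by
    obtain ⟨i, hi⟩ := Subgroup.mem_zpowers_iff.mp hc2w
    rw [← hi]
    exact (Commute.zpow_right (show Commute g w from hgw) i)
  have hwc2 : w ∈ Subgroup.zpowers c2 := mem_zpowers_of_prime hp hw hc2w hc21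
  have hwa : w ^ a ∈ Subgroup.zpowers c2 := Subgroup.zpow_mem _ hwc2 a
  obtain ⟨n, hn⟩ := (Submonoid.mem_powers_iff _ _).mp (mem_powers_iff_mem_zpowers.mpr hwa)
  have hiter : ∀ n : ℕ, g ^ n * d2 * (g ^ n)⁻¹ = c2 ^ n * d2 := by
    intro n
    induction n with
    | zero => simp
    | succ n ih =>
      have hgc2n : g * c2 ^ n * g⁻¹ = c2 ^ n := by
        rw [(hgc2.pow_right n).eq]; group
      calc g ^ (n + 1) * d2 * (g ^ (n + 1))⁻¹ = g * (g ^ n * d2 * (g ^ n)⁻¹) * g⁻¹ := by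
            rw [pow_succ']; group
        _ = g * (c2 ^ n * d2) * g⁻¹ := by rw [ih]
        _ = (g * c2 ^ n * g⁻¹) * (g * d2 * g⁻¹) := by group
        _ = c2 ^ n * (c2 * d2) := by rw [hgc2n, hgd2]
        _ = c2 ^ (n + 1) * d2 := by rw [pow_succ, mul_assoc]
  have hk : k = g ^ n * d2 * (g ^ n)⁻¹ := by rw [hiter, hn, hkab, hd2]
  have hFd2 : F d2 := by
    have h1 := hF.conj (g ^ n)⁻¹ k hkF
    rw [hk] at h1
    have h2 : (g ^ n)⁻¹ * (g ^ n * d2 * (g ^ n)⁻¹) * (g ^ n)⁻¹⁻¹ = d2 := by group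
    rwa [h2] at h1
  have hd2z : d2 ∈ Subgroup.zpowers d' := by
    rw [hd2]; exact Subgroup.zpow_mem _ (Subgroup.mem_zpowers d') b
  have hd'd2 : d' ∈ Subgroup.zpowers d2 := mem_zpowers_of_prime hp hd' hd2z hd21
  obtain ⟨j, hj⟩ := (Submonoid.mem_powers_iff _ _).mp (mem_powers_iff_mem_zpowers.mpr hd'd2)
  rw [← hj]
  exact hF.pow d2 j hFd2

/-- (IterComm) iterated commutators with `x` in a `p`-subgroup -/
theorem iter_comm {Λ : Type*} [Group Λ] [Finite Λ] {p : ℕ} [Fact p.Prime] (T : Subgroup Λ)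
    (hT : IsPGroup p T) (x g0 : Λ) (hx : x ∈ T) (hg0 : g0 ∈ T) (P : Λ → Prop)
    (hP : ∀ g, P g → P (g * x * g⁻¹ * x⁻¹)) (hP0 : P g0) (hne : g0 * x * g0⁻¹ * x⁻¹ ≠ 1) :
    ∃ g, P g ∧ g * x * g⁻¹ * x⁻¹ ≠ 1 ∧
      (g * x * g⁻¹ * x⁻¹) * x = x * (g * x * g⁻¹ * x⁻¹) := by
  obtain ⟨s, hs0, hss⟩ : ∃ s : ℕ → Λ, s 0 = g0 ∧ ∀ n, s (n + 1) = s n * x * (s n)⁻¹ * x⁻¹ :=
    ⟨fun n => (fun g => g * x * g⁻¹ * x⁻¹)^[n] g0, rfl,
      fun n => Function.iterate_succ_apply' _ _ _⟩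
  have hPs : ∀ n, P (s n) := by
    intro n
    induction n with
    | zero => rw [hs0]; exact hP0
    | succ n ih => rw [hss]; exact hP _ ih
  have hex : ∃ n, s n = 1 := by
    haveI : Group.IsNilpotent ↥T := hT.isNilpotent
    obtain ⟨n, hn⟩ := (Subgroup.isNilpotent_iff_lowerCentralSeries T).mp inferInstance
    refine ⟨n, ?_⟩
    have key : ∀ k : ℕ, s k ∈ T.lowerCentralSeries k := by
      intro k
      induction k with
      | zero => rw [hs0]; exact hg0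
      | succ k ih =>
        rw [hss, Subgroup.lowerCentralSeries_succ]
        have h1 := Subgroup.commutator_mem_commutator ih hx
        rwa [commutatorElement_def] at h1
    have h2 := key n
    rwa [hn, Subgroup.mem_bot] at h2
  classical
  have h0 : s 0 ≠ 1 := by
    rw [hs0]
    intro h
    apply hne
    rw [h]
    group
  have h1 : s 1 ≠ 1 := by rw [hss 0, hs0]; exact hne
  obtain ⟨N, hN, hmin⟩ : ∃ N, s N = 1 ∧ ∀ k < N, s k ≠ 1 :=
    ⟨Nat.find hex, Nat.find_spec hex, fun k hk => Nat.find_min hex hk⟩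
  have hN2 : 2 ≤ N := by
    by_contra hlt
    have h3 : N = 0 ∨ N = 1 := by omega
    rcases h3 with rfl | rfl
    · exact h0 hN
    · exact h1 hN
  obtain ⟨k, rfl⟩ : ∃ k, N = k + 2 := ⟨N - 2, by omega⟩
  refine ⟨s k, hPs k, ?_, ?_⟩
  · rw [← hss k]; exact hmin (k + 1) (by omega)
  · have h2 := hss (k + 1)
    rw [hN] at h2
    rw [← hss k]
    have h3 : s (k + 1) * x = (s (k + 1) * x * (s (k + 1))⁻¹ * x⁻¹) * (x * s (k + 1)) := by group
    rw [h3, ← h2, one_mul]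

/-- **P10-A (PkgCoreA)** -/
theorem pkgCoreA : PkgCoreA.{u} := by
  intro Λ _ p p' FV FU h
  haveI : Finite Λ := h.fin
  have hp : p.Prime := h.pprime
  have hp' : p'.Prime := h.p'prime
  haveI : Fact p.Prime := ⟨hp⟩
  haveI : Fact p'.Prime := ⟨hp'⟩
  obtain ⟨O, hOdef⟩ : ∃ O : Subgroup Λ, O = Cfsg.pCore p Λ := ⟨_, rfl⟩
  rw [← hOdef]
  have hOn : O.Normal := by rw [hOdef]; exact Cfsg.Agent.Lib.Helper22.pCore_normal' p Λ
  have hOp : IsPGroup p O := by rw [hOdef]; exact Cfsg.Agent.Lib.Helper22.pCore_isPGroup' p Λ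
  by_cases hObot : O = ⊥
  · refine ⟨1, one_pow p, ?_, ?_⟩
    · intro d hd _
      rw [hObot, Subgroup.mem_bot] at hd
      rw [hd]
      exact Subgroup.one_mem _
    · intro x _ g hg
      rw [hObot, Subgroup.mem_bot] at hg
      rw [hg, mul_one, one_mul]
  obtain ⟨w, hwO, hw, hwc⟩ := exists_central_of_pgroup hp O hOp hObot
  have hwp : w ^ p = 1 := by rw [← hw]; exact pow_orderOf_eq_one w
  obtain ⟨x', y', hx', hy', hxy', hyn'⟩ := h.rank'
  -- `K = Z(O)`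
  obtain ⟨K, hKdef⟩ : ∃ K : Subgroup Λ, K = O ⊓ Subgroup.centralizer (O : Set Λ) := ⟨_, rfl⟩
  have hKmem : ∀ z, z ∈ K ↔ z ∈ O ∧ ∀ o ∈ O, o * z = z * o := by
    intro z
    rw [hKdef, Subgroup.mem_inf, Subgroup.mem_centralizer_iff]
    rfl
  have hKab : ∀ a ∈ K, ∀ b ∈ K, a * b = b * a :=
    fun a ha b hb => ((hKmem b).mp hb).2 a ((hKmem a).mp ha).1
  have hKn : ∀ g : Λ, ∀ k ∈ K, g * k * g⁻¹ ∈ K := by
    intro g k hk
    rw [hKmem]
    refine ⟨hOn.conj_mem k ((hKmem k).mp hk).1 g, fun o ho => ?_⟩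
    have h1 : g⁻¹ * o * g ∈ O := by simpa using hOn.conj_mem o ho g⁻¹
    have h2 := ((hKmem k).mp hk).2 _ h1
    calc o * (g * k * g⁻¹) = g * (g⁻¹ * o * g * k) * g⁻¹ := by group
      _ = g * (k * (g⁻¹ * o * g)) * g⁻¹ := by rw [h2]
      _ = g * k * g⁻¹ * o := by group
  have hKcard : ¬ p' ∣ Nat.card K := by
    have hKO : K ≤ O := fun z hz => ((hKmem z).mp hz).1
    obtain ⟨n, hn⟩ := IsPGroup.iff_card.mp hOp
    intro hd
    have h1 : p' ∣ p ^ n := hn ▸ hd.trans (Subgroup.card_dvd_of_le hKO)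
    exact h.ne ((Nat.prime_dvd_prime_iff_eq hp' hp).mp (hp'.dvd_of_dvd_pow h1)).symm
  have hx'K : ∀ k ∈ K, x' * k = k * x' :=
    h.nf x' (by rw [hx']; exact hp') K hKab (by rw [hx']; exact hKcard)
      (fun k hk => hKn x' k hk)
  have hy'K : ∀ k ∈ K, y' * k = k * y' :=
    h.nf y' (by rw [hy']; exact hp') K hKab (by rw [hy']; exact hKcard)
      (fun k hk => hKn y' k hk)
  have hwK : w ∈ K := (hKmem w).mpr ⟨hwO, fun o ho => (hwc o ho).symm⟩
  -- (A1)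
  have hA1 : ∀ z ∈ K, z ^ p = 1 → z ∈ Subgroup.zpowers w := by
    intro z hz hzp
    by_contra hzn
    have hz1 : z ≠ 1 := fun h1 => hzn (h1 ▸ Subgroup.one_mem _)
    exact no_pair (fpredV h) hp hp' h.ne w z x' y' hw (orderOf_eq_prime hzp hz1)
      (hKab w hwK z hz) hzn hx' hy' hxy' hyn' (hx'K w hwK).symm (hy'K w hwK).symm
      (hx'K z hz).symm (hy'K z hz).symm
  -- (A2)
  have hA2V := not_F_of_central (fpredV h) hp hp' h.ne w x' y' hw hx' hy' hxy' hyn'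
    (hx'K w hwK).symm (hy'K w hwK).symm
  have hA2U := not_F_of_central (fpredU h) hp hp' h.ne w x' y' hw hx' hy' hxy' hyn'
    (hx'K w hwK).symm (hy'K w hwK).symm
  -- (A3)
  have hwn : ∀ g : Λ, g * w * g⁻¹ ∈ Subgroup.zpowers w := by
    intro g
    apply hA1 _ (hKn g w hwK)
    rw [conj_pow, hwp, mul_one, mul_inv_cancel]
  -- (Conj)
  have hConj : ∀ d' g c : Λ, orderOf d' = p → d' * w = w * d' → d' ∉ Subgroup.zpowers w →
      g * w = w * g → c ∈ Subgroup.zpowers w → c ≠ 1 → g * d' * g⁻¹ = c * d' → False := by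
    intro d' g c hd' hdw hdn hgw hc hc1 hgd
    exact h.excl d' (by rw [hd']; exact hp)
      (F_of_conj (fpredV h) hp w hw hA2V d' g c hd' hdw hdn hgw hc hc1 hgd)
      (F_of_conj (fpredU h) hp w hw hA2U d' g c hd' hdw hdn hgw hc hc1 hgd)
  -- (A5)
  have hA5 : ∀ d ∈ O, d ^ p = 1 → d ∈ Subgroup.zpowers w := by
    by_contra hcon
    push_neg at hcon
    obtain ⟨d0, hd0O, hd0p, hd0n⟩ := hcon
    haveI : Nonempty {d : Λ // d ∈ O ∧ d ^ p = 1 ∧ d ∉ Subgroup.zpowers w} :=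
      ⟨⟨d0, hd0O, hd0p, hd0n⟩⟩
    obtain ⟨⟨d, hdO, hdp, hdn⟩, hmax⟩ := Finite.exists_max
      (fun d : {d : Λ // d ∈ O ∧ d ^ p = 1 ∧ d ∉ Subgroup.zpowers w} =>
        Nat.card ↥(O ⊓ Subgroup.centralizer ({d.1} : Set Λ)))
    obtain ⟨C, hCdef⟩ : ∃ C : Subgroup Λ, C = O ⊓ Subgroup.centralizer ({d} : Set Λ) :=
      ⟨_, rfl⟩
    have hCmem : ∀ u, u ∈ C ↔ u ∈ O ∧ d * u = u * d := by
      intro u
      rw [hCdef, Subgroup.mem_inf, Subgroup.mem_centralizer_iff]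
      constructor
      · rintro ⟨h1, h2⟩
        exact ⟨h1, h2 d rfl⟩
      · rintro ⟨h1, h2⟩
        exact ⟨h1, fun x hx => by rw [Set.mem_singleton_iff.mp hx]; exact h2⟩
    have hCO : C ≤ O := fun u hu => ((hCmem u).mp hu).1
    have hClt : C < O := by
      refine lt_of_le_of_ne hCO ?_
      intro heq
      apply hdn
      apply hA1 d _ hdp
      rw [hKmem]
      refine ⟨hdO, fun o ho => ?_⟩
      have h1 : o ∈ C := by rw [heq]; exact ho
      exact ((hCmem o).mp h1).2.symm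
    obtain ⟨g, hgO, hgC, hgN⟩ := Cfsg.Agent.Lib.Helper53.exists_mem_normalizer_not_mem hOp hClt
    have hgd : g * d ≠ d * g := fun hh => hgC ((hCmem g).mpr ⟨hgO, hh.symm⟩)
    have hPstep : ∀ f, (f ∈ C ∧ (∀ u ∈ C, f * u = u * f) ∧ f ^ p = 1) →
        (f * g * f⁻¹ * g⁻¹ ∈ C ∧ (∀ u ∈ C, (f * g * f⁻¹ * g⁻¹) * u = u * (f * g * f⁻¹ * g⁻¹)) ∧
          (f * g * f⁻¹ * g⁻¹) ^ p = 1) := by
      rintro f ⟨hfC, hfc, hfp⟩
      have heC : g * f⁻¹ * g⁻¹ ∈ C :=
        (Subgroup.mem_normalizer_iff.mp hgN f⁻¹).mp (C.inv_mem hfC)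
      have hec : ∀ u ∈ C, (g * f⁻¹ * g⁻¹) * u = u * (g * f⁻¹ * g⁻¹) := by
        intro u hu
        have hu' : g⁻¹ * u * g ∈ C := by
          apply (Subgroup.mem_normalizer_iff.mp hgN (g⁻¹ * u * g)).mpr
          have h1 : g * (g⁻¹ * u * g) * g⁻¹ = u := by group
          rw [h1]
          exact hu
        have h2 := hfc _ hu'
        have h3 : f⁻¹ * (g⁻¹ * u * g) = (g⁻¹ * u * g) * f⁻¹ := by
          calc f⁻¹ * (g⁻¹ * u * g) = f⁻¹ * ((g⁻¹ * u * g) * f) * f⁻¹ := by group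
            _ = f⁻¹ * (f * (g⁻¹ * u * g)) * f⁻¹ := by rw [h2]
            _ = (g⁻¹ * u * g) * f⁻¹ := by group
        calc g * f⁻¹ * g⁻¹ * u = g * (f⁻¹ * (g⁻¹ * u * g)) * g⁻¹ := by group
          _ = g * ((g⁻¹ * u * g) * f⁻¹) * g⁻¹ := by rw [h3]
          _ = u * (g * f⁻¹ * g⁻¹) := by group
      have hfe : f * g * f⁻¹ * g⁻¹ = f * (g * f⁻¹ * g⁻¹) := by group
      rw [hfe]
      refine ⟨C.mul_mem hfC heC, fun u hu => ?_, ?_⟩
      · rw [mul_assoc, hec u hu, ← mul_assoc, hfc u hu, mul_assoc]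
      · rw [(show Commute f (g * f⁻¹ * g⁻¹) from hfc _ heC).mul_pow, hfp, conj_pow, inv_pow,
          hfp]
        group
    have hP0 : d ∈ C ∧ (∀ u ∈ C, d * u = u * d) ∧ d ^ p = 1 :=
      ⟨(hCmem d).mpr ⟨hdO, rfl⟩, fun u hu => ((hCmem u).mp hu).2, hdp⟩
    have hne0 : d * g * d⁻¹ * g⁻¹ ≠ 1 := by
      intro h1
      apply hgd
      have h2 : d * g = (d * g * d⁻¹ * g⁻¹) * (g * d) := by group
      rw [h2, h1, one_mul]
    obtain ⟨f, ⟨hfC, hfc, hfp⟩, hc1, hcg⟩ := iter_comm O hOp g d hgO hdO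
      (fun f => f ∈ C ∧ (∀ u ∈ C, f * u = u * f) ∧ f ^ p = 1) hPstep hP0 hne0
    obtain ⟨hcC, hcc, hcp⟩ := hPstep f ⟨hfC, hfc, hfp⟩
    obtain ⟨c, hcdef⟩ : ∃ c : Λ, c = f * g * f⁻¹ * g⁻¹ := ⟨_, rfl⟩
    rw [← hcdef] at hc1 hcg hcC hcc hcp
    have hcw : c ∈ Subgroup.zpowers w := by
      by_contra hcn
      have h1 : Nat.card ↥(O ⊓ Subgroup.centralizer ({c} : Set Λ)) ≤
          Nat.card ↥(O ⊓ Subgroup.centralizer ({d} : Set Λ)) :=
        hmax ⟨c, hCO hcC, hcp, hcn⟩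
      have hle : C ≤ O ⊓ Subgroup.centralizer ({c} : Set Λ) := by
        intro u hu
        refine Subgroup.mem_inf.mpr ⟨hCO hu, Subgroup.mem_centralizer_iff.mpr ?_⟩
        intro x hx
        rw [Set.mem_singleton_iff.mp hx]
        exact hcc u hu
      have hgmem : g ∈ O ⊓ Subgroup.centralizer ({c} : Set Λ) := by
        refine Subgroup.mem_inf.mpr ⟨hgO, Subgroup.mem_centralizer_iff.mpr ?_⟩
        intro x hx
        rw [Set.mem_singleton_iff.mp hx]
        exact hcg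
      have heq := Subgroup.eq_of_le_of_card_ge hle (by rw [hCdef]; exact h1)
      exact hgC (by rw [heq]; exact hgmem)
    have hgw : g * w = w * g := (hwc g hgO).symm
    have hfO : f ∈ O := hCO hfC
    have hfn : f ∉ Subgroup.zpowers w := by
      intro hf
      apply hc1
      obtain ⟨i, hi⟩ := Subgroup.mem_zpowers_iff.mp hf
      have hgf : g * f = f * g := by
        rw [← hi]
        exact (Commute.zpow_right (show Commute g w from hgw) i).eq
      rw [hcdef]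
      calc f * g * f⁻¹ * g⁻¹ = (g * f) * f⁻¹ * g⁻¹ := by rw [hgf]
        _ = 1 := by group
    have hf1 : f ≠ 1 := fun h1 => hfn (h1 ▸ Subgroup.one_mem _)
    have hfo : orderOf f = p := orderOf_eq_prime hfp hf1
    have hgf' : g * f * g⁻¹ = c⁻¹ * f := by rw [hcdef]; group
    exact hConj f g c⁻¹ hfo (hwc f hfO).symm hfn hgw (Subgroup.inv_mem _ hcw)
      (inv_ne_one.mpr hc1) hgf'
  -- (A6)
  have hA6 : ∀ x : Λ, orderOf x = p → ∀ g ∈ O, x * g = g * x := by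
    intro x hx
    have hxp : x ^ p = 1 := by rw [← hx]; exact pow_orderOf_eq_one x
    have hxw : x * w = w * x := by
      by_contra hne
      have h1 := dvd_sub_one_of_act x w p p hp hp hw hxp (hwn x) hne
      have h2 := Nat.le_of_dvd (Nat.sub_pos_of_lt hp.one_lt) h1
      have h3 := hp.one_lt
      omega
    by_cases hxz : x ∈ Subgroup.zpowers w
    · intro g hg
      obtain ⟨i, hi⟩ := Subgroup.mem_zpowers_iff.mp hxz
      rw [← hi]
      exact (Commute.zpow_left (show Commute w g from hwc g hg) i).eq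
    · by_contra hcon
      push_neg at hcon
      obtain ⟨g0, hg0O, hg0x⟩ := hcon
      have hTp : IsPGroup p (Subgroup.zpowers x ⊔ O : Subgroup Λ) := by
        haveI := hOn
        exact IsPGroup.to_sup_of_normal_right
          (IsPGroup.of_card (n := 1) (by rw [Nat.card_zpowers, hx, pow_one])) hOp
      have hne0 : g0 * x * g0⁻¹ * x⁻¹ ≠ 1 := by
        intro h1
        apply hg0x
        have h2 : x * g0 = (g0 * x * g0⁻¹ * x⁻¹)⁻¹ * (g0 * x) := by group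
        rw [h2, h1, inv_one, one_mul]
      have hstep : ∀ g, g ∈ O → g * x * g⁻¹ * x⁻¹ ∈ O := by
        intro g hg
        have h1 : g * x * g⁻¹ * x⁻¹ = g * (x * g⁻¹ * x⁻¹) := by group
        rw [h1]
        exact O.mul_mem hg (hOn.conj_mem g⁻¹ (O.inv_mem hg) x)
      obtain ⟨g, hgO, hc1, hcx⟩ := iter_comm (Subgroup.zpowers x ⊔ O) hTp x g0
        (Subgroup.mem_sup_left (Subgroup.mem_zpowers x)) (Subgroup.mem_sup_right hg0O)
        (fun g => g ∈ O) hstep hg0O hne0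
      have hcO := hstep g hgO
      obtain ⟨c, hcdef⟩ : ∃ c : Λ, c = g * x * g⁻¹ * x⁻¹ := ⟨_, rfl⟩
      rw [← hcdef] at hc1 hcx hcO
      have hgx : g * x * g⁻¹ = c * x := by rw [hcdef]; group
      have hcp : c ^ p = 1 := by
        have h1 : (c * x) ^ p = 1 := by rw [← hgx, conj_pow, hxp, mul_one, mul_inv_cancel]
        rw [(show Commute c x from hcx).mul_pow, hxp, mul_one] at h1
        exact h1
      have hcw : c ∈ Subgroup.zpowers w := hA5 c hcO hcp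
      exact hConj x g c hx hxw hxz (hwc g hgO).symm hcw hc1 hgx
  exact ⟨w, hwp, hA5, hA6⟩

end Cfsg.Agent.Lib.Helper22.FP
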