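import Mathlib
import Cfsg.Agent.Lib.Helper46.FP.Defs
import Cfsg.Agent.Lib.Helper22.FP.ETools
import Cfsg.Agent.S3745
import Cfsg.Agent.Lib.Helper22.PConstr
import Cfsg.Agent.Lib.Helper22.Quasi

/-!
# S3814 package P7: `PkgE` (faithful case: every minimal normal subgroup of `H` is cyclic)

helper22, following the paper proof of helper46 (team note 3655).
-/

set_option autoImplicit false
set_option maxHeartbeats 1600000

namespace Cfsg.Agent.Lib.Helper22.FP

open Cfsg.Agent.Lib.Helper46.FP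
open scoped Pointwise commutatorElement

universe u

/-- The core of (E): with the primes named so that the `b`-part `y` of an element of order `b c`
of the Hall `a'`-subgroup `D` centralizes `N` and is free, and its `c`-part is fix-type. -/
theorem core {G : Type u} [Group G] {V H : Subgroup G} {t : ℕ} {π : Finset ℕ}
    (hT1 : BF_T1.{u}) (hC1a : BF_C1a.{u}) (hC1b : BF_C1b.{u}) (hT3 : BF_T3.{u})
    (hM : BF_M.{u}) (hNF : BF_NF.{u})
    (hc : Cfg V H t π) (hfa : Faithful V H)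
    (N : Subgroup G) (hNH : N ≤ H) (hNn : ∀ h ∈ H, ∀ x ∈ N, h * x * h⁻¹ ∈ N)
    (hNab : ∀ x ∈ N, ∀ x' ∈ N, x * x' = x' * x) (a b c : ℕ) (hNexp : ∀ x ∈ N, x ^ a = 1)
    (ha : a ∈ π) (hb : b ∈ π) (hcπ : c ∈ π) (hab : a ≠ b) (hac : a ≠ c) (hbc : b ≠ c)
    (hπ : ∀ p ∈ π, p = a ∨ p = b ∨ p = c)
    (x0 : G) (hx0N : x0 ∈ N) (hx0 : orderOf x0 = a) (hx0f : Fx V x0)
    (D : Subgroup G) (hDH : D ≤ H) (hDa : (Nat.card D).Coprime a)
    (hconj : ∀ U : Subgroup G, U ≤ H → (Nat.card U).Coprime a →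
      ∃ h ∈ H, ∀ u ∈ U, h * u * h⁻¹ ∈ D)
    (g1 : G) (hg1D : g1 ∈ D) (hg1 : orderOf g1 = b * c)
    (y z : G) (hyD : y ∈ D) (hzD : z ∈ D) (hy : orderOf y = b) (hz : orderOf z = c)
    (hyN : ∀ k ∈ N, y * k = k * y) (hzf : Fx V z) : False := by
  haveI : Finite G := hc.fin
  have hap : a.Prime := hc.piprime a ha
  have hbp : b.Prime := hc.piprime b hb
  have hcp : c.Prime := hc.piprime c hcπ
  haveI : Fact a.Prime := ⟨hap⟩
  haveI : Fact b.Prime := ⟨hbp⟩
  haveI : Fact c.Prime := ⟨hcp⟩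
  haveI hVn : V.Normal := hc.Vnormal
  have hx01 : x0 ≠ 1 := by
    rintro rfl
    rw [orderOf_one] at hx0
    exact hap.ne_one hx0.symm
  have hNbot : N ≠ ⊥ := by
    intro h
    rw [h, Subgroup.mem_bot] at hx0N
    exact hx01 hx0N
  have hNord : ∀ k ∈ N, k ≠ 1 → orderOf k = a :=
    fun k hk hk1 => orderOf_eq_prime (hNexp k hk) hk1
  have hNpg : IsPGroup a N := by
    intro g
    refine ⟨1, ?_⟩
    rw [pow_one]
    apply Subtype.ext
    simpa using hNexp g.1 g.2
  obtain ⟨kN, hkN⟩ := IsPGroup.iff_card.mp hNpg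
  have hbN : ¬ b ∣ Nat.card N := by
    rw [hkN]
    intro hd
    exact hab ((Nat.prime_dvd_prime_iff_eq hbp hap).mp (hbp.dvd_of_dvd_pow hd)).symm
  have hcN : ¬ c ∣ Nat.card N := by
    rw [hkN]
    intro hd
    exact hac ((Nat.prime_dvd_prime_iff_eq hcp hap).mp (hcp.dvd_of_dvd_pow hd)).symm
  have hFxconj : ∀ h e : G, Fx V e → Fx V (h * e * h⁻¹) := by
    rintro h e ⟨v, hv, hv1, hve⟩
    refine ⟨h * v * h⁻¹, hVn.conj_mem v hv h, ?_, ?_⟩
    · intro h1
      apply hv1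
      have h2 : v = h⁻¹ * (h * v * h⁻¹) * h := by group
      rw [h2, h1]
      group
    · calc h * v * h⁻¹ * (h * e * h⁻¹) = h * (v * e) * h⁻¹ := by group
        _ = h * (e * v) * h⁻¹ := by rw [hve]
        _ = h * e * h⁻¹ * (h * v * h⁻¹) := by group
  have hordconj : ∀ h e : G, orderOf (h * e * h⁻¹) = orderOf e := by
    intro h e
    have h1 := (MulAut.conj h).orderOf_eq e
    simpa [MulAut.conj_apply] using h1
  have hconj1 : ∀ e ∈ H, ∀ q : ℕ, q.Prime → q ≠ a → orderOf e = q →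
      ∃ h ∈ H, h * e * h⁻¹ ∈ D := by
    intro e he q hq hqa heq
    have hcop : (Nat.card (Subgroup.zpowers e)).Coprime a := by
      rw [Nat.card_zpowers, heq]
      exact (Nat.coprime_primes hq hap).mpr hqa
    obtain ⟨h, hh, hU⟩ := hconj (Subgroup.zpowers e) ((Subgroup.zpowers_le).mpr he) hcop
    exact ⟨h, hh, hU e (Subgroup.mem_zpowers e)⟩
  have hpairH : ∀ u v e : G, u ∈ H → v ∈ H → e ∈ Subgroup.closure ({u, v} : Set G) →
      e ∈ H := by
    intro u v e hu hv he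
    refine (Subgroup.closure_le H).mpr ?_ he
    intro w hw
    rcases hw with rfl | hw
    · exact hu
    · rw [Set.mem_singleton_iff.mp hw]; exact hv
  have hyp : y ^ b = 1 := by rw [← hy]; exact pow_orderOf_eq_one y
  have hzp : z ^ c = 1 := by rw [← hz]; exact pow_orderOf_eq_one z
  -- a fix-type element of order `b` in `D`
  obtain ⟨yf, hyfD, hyfo, hyff⟩ : ∃ yf ∈ D, orderOf yf = b ∧ Fx V yf := by
    obtain ⟨y', hy'H, hy', hyy', hy'n⟩ := hc.rank b hb y (hDH hyD) hy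
    obtain ⟨e, heE, he1, hef⟩ := hT1 hc b hb y (hDH hyD) y' hy'H hy hy' hyy' hy'n
    have heH : e ∈ H := hpairH y y' e (hDH hyD) hy'H heE
    have heord : orderOf e = b :=
      orderOf_eq_prime (closure_pair_pow hyy' hyp (by rw [← hy']; exact pow_orderOf_eq_one y')
        heE) he1
    obtain ⟨h, hh, hhD⟩ := hconj1 e heH b hbp hab.symm heord
    exact ⟨h * e * h⁻¹, hhD, by rw [hordconj, heord], hFxconj h e hef⟩
  have hyf1 : yf ≠ 1 := by
    rintro rfl
    rw [orderOf_one] at hyfo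
    exact hbp.ne_one hyfo.symm
  -- E3 : `H = N D`
  have hK : N ⊔ D = H := by
    apply hc.minimal (N ⊔ D) (sup_le hNH hDH)
    · have hab' : ∃ g ∈ N ⊔ D, orderOf g = a * b := by
        refine ⟨x0 * y, Subgroup.mul_mem _ (Subgroup.mem_sup_left hx0N)
          (Subgroup.mem_sup_right hyD), ?_⟩
        have hcomm : Commute x0 y := (hyN x0 hx0N).symm
        rw [hcomm.orderOf_mul_eq_mul_orderOf_of_coprime
          (by rw [hx0, hy]; exact (Nat.coprime_primes hap hbp).mpr hab), hx0, hy]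
      have hac' : ∃ g ∈ N ⊔ D, orderOf g = a * c := by
        obtain ⟨z', hz'H, hz', hzz', hz'n⟩ := hc.rank c hcπ z (hDH hzD) hz
        obtain ⟨e, heE, he1, w, hwN, hw1, hew⟩ := t1 hcp z z' hzz' hz hz' hz'n N hNbot hcN
          (fun w hw => hNn z (hDH hzD) w hw) (fun w hw => hNn z' hz'H w hw)
        have heH : e ∈ H := hpairH z z' e (hDH hzD) hz'H heE
        have heord : orderOf e = c :=
          orderOf_eq_prime (closure_pair_pow hzz' hzp
            (by rw [← hz']; exact pow_orderOf_eq_one z') heE) he1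
        obtain ⟨h, hh, hhD⟩ := hconj1 e heH c hcp hac.symm heord
        refine ⟨(h * w * h⁻¹) * (h * e * h⁻¹), Subgroup.mul_mem _
          (Subgroup.mem_sup_left (hNn h hh w hwN)) (Subgroup.mem_sup_right hhD), ?_⟩
        have hcomm : Commute (h * w * h⁻¹) (h * e * h⁻¹) := by
          show h * w * h⁻¹ * (h * e * h⁻¹) = h * e * h⁻¹ * (h * w * h⁻¹)
          calc h * w * h⁻¹ * (h * e * h⁻¹) = h * (w * e) * h⁻¹ := by group
            _ = h * (e * w) * h⁻¹ := by rw [hew]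
            _ = h * e * h⁻¹ * (h * w * h⁻¹) := by group
        rw [hcomm.orderOf_mul_eq_mul_orderOf_of_coprime
          (by rw [hordconj, hordconj, hNord w hwN hw1, heord]
              exact (Nat.coprime_primes hap hcp).mpr hac),
          hordconj, hordconj, hNord w hwN hw1, heord]
      have hbc' : ∃ g ∈ N ⊔ D, orderOf g = b * c := ⟨g1, Subgroup.mem_sup_right hg1D, hg1⟩
      intro p hp q hq hpq
      rcases hπ p hp with hp' | hp' | hp' <;> rcases hπ q hq with hq' | hq' | hq' <;>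
        rw [hp', hq'] at hpq <;> rw [hp', hq']
      · exact absurd rfl hpq
      · exact hab'
      · exact hac'
      · obtain ⟨g, hg, hgo⟩ := hab'
        exact ⟨g, hg, by rw [hgo, mul_comm]⟩
      · exact absurd rfl hpq
      · exact hbc'
      · obtain ⟨g, hg, hgo⟩ := hac'
        exact ⟨g, hg, by rw [hgo, mul_comm]⟩
      · obtain ⟨g, hg, hgo⟩ := hbc'
        exact ⟨g, hg, by rw [hgo, mul_comm]⟩
      · exact absurd rfl hpq
    · intro p hp
      rcases hπ p hp with hp' | hp' | hp' <;> rw [hp']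
      · exact ⟨x0, Subgroup.mem_sup_left hx0N, hx0, hx0f⟩
      · exact ⟨yf, Subgroup.mem_sup_right hyfD, hyfo, hyff⟩
      · exact ⟨z, Subgroup.mem_sup_right hzD, hz, hzf⟩
  -- E4 : `R = D ∩ C(N)`
  obtain ⟨R, hRdef⟩ : ∃ R : Subgroup G, R = D ⊓ Subgroup.centralizer (N : Set G) := ⟨_, rfl⟩
  have hRmem : ∀ r, r ∈ R ↔ r ∈ D ∧ ∀ k ∈ N, k * r = r * k := by
    intro r
    rw [hRdef, Subgroup.mem_inf, Subgroup.mem_centralizer_iff]
    rfl
  have hyR : y ∈ R := (hRmem y).mpr ⟨hyD, fun k hk => (hyN k hk).symm⟩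
  have hRD : R ≤ D := fun r hr => ((hRmem r).mp hr).1
  have hRnoc : ∀ r ∈ R, orderOf r ≠ c := by
    intro r hr hrc
    exact hC1a hc a ha b hb c hcπ hab hbc hac x0 (hNH hx0N) y (hDH hyD) r (hDH (hRD hr))
      hx0 hx0f hy hrc (hyN x0 hx0N).symm (((hRmem r).mp hr).2 x0 hx0N)
  have hRp : IsPGroup b R := by
    have hcard : ∀ {q : ℕ}, q.Prime → q ∣ Nat.card R → q = b := by
      intro q hq hqd
      have hqH : q ∣ Nat.card H := hqd.trans (Subgroup.card_dvd_of_le (hRD.trans hDH))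
      rcases hπ q (hc.Hpi q hq hqH) with h | h | h
      · exfalso
        have h1 : q ∣ Nat.card D := hqd.trans (Subgroup.card_dvd_of_le hRD)
        rw [h] at h1
        exact hap.ne_one (Nat.Coprime.eq_one_of_dvd hDa.symm h1)
      · exact h
      · exfalso
        haveI : Fact q.Prime := ⟨hq⟩
        obtain ⟨r, hr⟩ := exists_prime_orderOf_dvd_card' q hqd
        exact hRnoc r.1 r.2 (by rw [Subgroup.orderOf_coe, hr, h])
    exact IsPGroup.of_card (Nat.eq_prime_pow_of_unique_prime_dvd Nat.card_pos.ne' hcard)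
  have hRbot : R ≠ ⊥ := by
    intro h
    have h1 : y ∈ (⊥ : Subgroup G) := h ▸ hyR
    rw [Subgroup.mem_bot] at h1
    rw [h1, orderOf_one] at hy
    exact hbp.ne_one hy.symm
  obtain ⟨m, hmR, hm, hmc⟩ := exists_central_of_pgroup hbp R hRp hRbot
  have hmD : m ∈ D := hRD hmR
  have hmH : m ∈ H := hDH hmD
  have hmN : ∀ k ∈ N, k * m = m * k := ((hRmem m).mp hmR).2
  have hm1 : m ≠ 1 := by
    rintro rfl
    rw [orderOf_one] at hm
    exact hbp.ne_one hm.symm
  have hR4 : ∀ y1 ∈ R, orderOf y1 = b → y1 ∈ Subgroup.zpowers m := by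
    intro y1 hy1 hy1o
    exact hC1b hc a ha b hb hab x0 (hNH hx0N) m hmH y1 (hDH (hRD hy1)) hx0 hx0f hm hy1o
      (hmN x0 hx0N) (((hRmem y1).mp hy1).2 x0 hx0N) (hmc y1 hy1)
  have hDR : ∀ d ∈ D, ∀ r ∈ R, d * r * d⁻¹ ∈ R := by
    intro d hd r hr
    rw [hRmem]
    refine ⟨D.mul_mem (D.mul_mem hd (hRD hr)) (D.inv_mem hd), fun k hk => ?_⟩
    have h1 : d⁻¹ * k * d ∈ N := by
      have h0 := hNn d⁻¹ (H.inv_mem (hDH hd)) k hk
      simpa using h0
    have h2 := ((hRmem r).mp hr).2 _ h1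
    calc k * (d * r * d⁻¹) = d * (d⁻¹ * k * d * r) * d⁻¹ := by group
      _ = d * (r * (d⁻¹ * k * d)) * d⁻¹ := by rw [h2]
      _ = d * r * d⁻¹ * k := by group
  have hconjpow : ∀ (h k : G), k ∈ Subgroup.zpowers m → h * m * h⁻¹ ∈ Subgroup.zpowers m →
      h * k * h⁻¹ ∈ Subgroup.zpowers m := by
    intro h k hk hm'
    obtain ⟨i, rfl⟩ := Subgroup.mem_zpowers_iff.mp hk
    rw [← conj_zpow]
    exact Subgroup.zpow_mem _ hm' i
  have hmNorm : ∀ h ∈ H, ∀ k ∈ Subgroup.zpowers m, h * k * h⁻¹ ∈ Subgroup.zpowers m := by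
    have hNle : N ≤ Subgroup.normalizer (Subgroup.zpowers m : Set G) := by
      intro n hn
      apply Cfsg.Agent.Lib.Helper24.FP.mem_normalizer_of_conj_mem
      intro k hk
      apply hconjpow n k hk
      have h1 : n * m * n⁻¹ = m := by rw [hmN n hn]; group
      rw [h1]
      exact Subgroup.mem_zpowers m
    have hDle : D ≤ Subgroup.normalizer (Subgroup.zpowers m : Set G) := by
      intro d hd
      apply Cfsg.Agent.Lib.Helper24.FP.mem_normalizer_of_conj_mem
      intro k hk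
      apply hconjpow d k hk
      exact hR4 _ (hDR d hd m hmR) (by rw [hordconj, hm])
    intro h hh k hk
    have hh' : h ∈ Subgroup.normalizer (Subgroup.zpowers m : Set G) :=
      (sup_le hNle hDle) (by rw [hK]; exact hh)
    exact (Subgroup.mem_normalizer_iff.mp hh' k).mp hk
  have hmNI : NormIn (Subgroup.zpowers m) H := ⟨(Subgroup.zpowers_le).mpr hmH, hmNorm⟩
  have hmfree : ¬ Fx V m := hNF hc hfa m hmH (by rw [hm]; exact hbp) hmNI
  have hR10 : ∀ k ∈ Subgroup.zpowers m, k ≠ 1 → ¬ Fx V k := by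
    rintro k hk hk1 ⟨v, hv, hv1, hvk⟩
    apply hmfree
    obtain ⟨i, hi⟩ := Subgroup.mem_zpowers_iff.mp (mem_zpowers_of_prime hbp hm hk hk1)
    refine ⟨v, hv, hv1, ?_⟩
    rw [← hi]
    exact (Commute.zpow_right (show Commute v k from hvk) i).eq
  have hR11 : ∀ y' ∈ H, orderOf y' = b → (∀ k ∈ N, y' * k = k * y') →
      y' ∈ Subgroup.zpowers m := by
    intro y' hy'H hy'o hy'N
    obtain ⟨n, hn, d, hd, hnd⟩ := mem_sup_of_normalizes N D
      (fun d hd n hn => hNn d (hDH hd) n hn) (by rw [hK]; exact hy'H : y' ∈ N ⊔ D)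
    have hdR : d ∈ R := by
      rw [hRmem]
      refine ⟨hd, fun k hk => ?_⟩
      have hd' : d = n⁻¹ * y' := by rw [hnd]; group
      rw [hd']
      calc k * (n⁻¹ * y') = n⁻¹ * (k * y') := by
            rw [← mul_assoc, hNab k hk n⁻¹ (N.inv_mem hn), mul_assoc]
        _ = n⁻¹ * (y' * k) := by rw [hy'N k hk]
        _ = n⁻¹ * y' * k := by rw [mul_assoc]
    have hcomm : Commute n d := ((hRmem d).mp hdR).2 n hn
    have hpow : y' ^ a = d ^ a := by
      rw [hnd, hcomm.mul_pow, hNexp n hn, one_mul]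
    have ho : orderOf (y' ^ a) = b := by
      rw [Nat.Coprime.orderOf_pow (by rw [hy'o]; exact (Nat.coprime_primes hbp hap).mpr hab.symm),
        hy'o]
    have h1 : y' ^ a ∈ Subgroup.zpowers m := hR4 _ (by rw [hpow]; exact R.pow_mem hdR a) ho
    have h2 : y' ^ a ≠ 1 := by
      intro h
      rw [h, orderOf_one] at ho
      exact hbp.ne_one ho.symm
    have h3 : y' ∈ Subgroup.zpowers (y' ^ a) :=
      mem_zpowers_of_prime hbp hy'o (Subgroup.npow_mem_zpowers y' a) h2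
    exact ((Subgroup.zpowers_le).mpr h1) h3
  -- E2 : BF_M for commuting `(b, c)`-pairs with `P := N`
  have hE2 := fun (y' : G) (hy' : y' ∈ H) (z' : G) (hz' : z' ∈ H) (hy'o : orderOf y' = b)
      (hz'o : orderOf z' = c) (hcomm : y' * z' = z' * y') =>
    hM hc hfa b hb c hcπ a ha hbc hac.symm hab.symm y' hy' z' hz' hy'o hz'o hcomm N hNH hNpg
      hNbot (fun k hk => hNn y' hy' k hk) (fun k hk => hNn z' hz' k hk)
  have hcm : ∀ e ∈ H, orderOf e = c → e * m = m * e →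
      Fx V e ∧ ∀ k ∈ N, e * k = k * e → k = 1 := by
    intro e he heo hem
    rcases hE2 m hmH e he hm heo hem.symm with ⟨_, h2, _, h4⟩ | ⟨_, h2, _, _⟩
    · exact ⟨h4, h2⟩
    · exact absurd (h2 x0 hx0N (hmN x0 hx0N).symm) hx01
  have hcopbt : (Nat.card (Subgroup.zpowers m)).Coprime t := by
    rw [Nat.card_zpowers, hm]
    refine (Nat.coprime_primes hbp hc.tprime).mpr ?_
    rintro rfl
    exact hc.tnot hb
  -- E6 : every element of order `c` of `H` is fix-type
  have hE6 : ∀ e ∈ H, orderOf e = c → Fx V e := by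
    intro e he heo
    by_cases hem : e * m = m * e
    · exact (hcm e he heo hem).1
    · by_contra hnf
      have key := Cfsg.Agent.Lib.Helper24.FP.t2 V hc.Vcomm t hc.Vexp (Subgroup.zpowers m) V
        le_rfl e (hmNorm e he) (fun w hw => hVn.conj_mem w hw e)
        (fun k _ w hw => hVn.conj_mem w hw k) hcopbt
        (by
          intro i hi k hk hcomm
          by_contra hk1
          apply hem
          obtain ⟨j, hj⟩ := Subgroup.mem_zpowers_iff.mp (mem_zpowers_of_prime hbp hm hk hk1)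
          obtain ⟨l, hl⟩ := Subgroup.mem_zpowers_iff.mp
            (mem_zpowers_of_prime hcp heo (Subgroup.npow_mem_zpowers e i) hi)
          rw [← hj, ← hl]
          exact ((Commute.zpow_right (show Commute (e ^ i) k from hcomm) j).zpow_left l).eq)
        (by
          intro w hw hew
          by_contra hw1
          exact hnf ⟨w, hw, hw1, hew.symm⟩)
      apply hm1
      apply hfa m hmH
      intro v hv
      exact (key m (Subgroup.mem_zpowers m) v hv).symm
  -- E5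
  have hbm : ¬ c ∣ Nat.card (Subgroup.zpowers m) := by
    rw [Nat.card_zpowers, hm]
    intro hd
    exact hbc ((Nat.prime_dvd_prime_iff_eq hcp hbp).mp hd).symm
  have hmbot : Subgroup.zpowers m ≠ ⊥ := by
    intro h
    have h1 : m ∈ (⊥ : Subgroup G) := h ▸ Subgroup.mem_zpowers m
    exact hm1 (Subgroup.mem_bot.mp h1)
  have hE5a : ∀ z1 ∈ H, ∀ z2 ∈ H, orderOf z1 = c → orderOf z2 = c → z1 * z2 = z2 * z1 →
      z2 ∉ Subgroup.zpowers z1 →
      ∃ z0 ∈ Subgroup.closure ({z1, z2} : Set G), z0 ≠ 1 ∧ z0 * m = m * z0 := by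
    intro z1 hz1 z2 hz2 ho1 ho2 hcomm hnot
    obtain ⟨e, heE, he1, w, hw, hw1, hew⟩ := t1 hcp z1 z2 hcomm ho1 ho2 hnot
      (Subgroup.zpowers m) hmbot hbm (hmNorm z1 hz1) (hmNorm z2 hz2)
    refine ⟨e, heE, he1, ?_⟩
    obtain ⟨i, hi⟩ := Subgroup.mem_zpowers_iff.mp (mem_zpowers_of_prime hbp hm hw hw1)
    rw [← hi]
    exact (Commute.zpow_right (show Commute e w from hew) i).eq
  have hE5c : ∀ z1 ∈ H, ∀ z2 ∈ H, orderOf z1 = c → orderOf z2 = c → z1 * z2 = z2 * z1 →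
      z2 ∉ Subgroup.zpowers z1 → ¬ (z1 * m = m * z1 ∧ z2 * m = m * z2) := by
    rintro z1 hz1 z2 hz2 ho1 ho2 hcomm hnot ⟨h1, h2⟩
    obtain ⟨e, heE, he1, w, hw, hw1, hew⟩ := t1 hcp z1 z2 hcomm ho1 ho2 hnot N hNbot hcN
      (fun w hw => hNn z1 hz1 w hw) (fun w hw => hNn z2 hz2 w hw)
    have heH : e ∈ H := hpairH z1 z2 e hz1 hz2 heE
    have heo : orderOf e = c :=
      orderOf_eq_prime (closure_pair_pow hcomm (by rw [← ho1]; exact pow_orderOf_eq_one z1)
        (by rw [← ho2]; exact pow_orderOf_eq_one z2) heE) he1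
    have hem : e * m = m * e := (closure_pair_comm h1.symm h2.symm heE).symm
    exact hw1 ((hcm e heH heo hem).2 w hw hew)
  -- E7
  have hE7 : ∀ y' ∈ H, ∀ z' ∈ H, orderOf y' = b → orderOf z' = c → y' * z' = z' * y' →
      y' ∈ Subgroup.zpowers m := by
    intro y' hy' z' hz' hy'o hz'o hcomm
    rcases hE2 y' hy' z' hz' hy'o hz'o hcomm with ⟨_, _, h3, _⟩ | ⟨_, _, h3, _⟩
    · apply hR11 y' hy' hy'o
      exact hT3 hc hfa b hb y' hy' hy'o h3 N hNH hNab hbN (fun k hk => hNn y' hy' k hk)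
    · exact absurd (hE6 z' hz' hz'o) h3
  -- a `C_c × C_c` inside `D`
  obtain ⟨z', hz'H, hz', hzz', hz'n⟩ := hc.rank c hcπ z (hDH hzD) hz
  have hz'p : z' ^ c = 1 := by rw [← hz']; exact pow_orderOf_eq_one z'
  have hUcop : (Nat.card (Subgroup.closure ({z, z'} : Set G))).Coprime a := by
    have hU := Cfsg.Agent.Lib.Helper90.isPGroup_closure_pair (p := c) z z' hzz' hzp hz'p
    obtain ⟨n, hn⟩ := IsPGroup.iff_card.mp hU
    rw [hn]
    exact Nat.Coprime.pow_left n ((Nat.coprime_primes hcp hap).mpr hac.symm)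
  obtain ⟨h, hh, hhU⟩ := hconj _ (fun e he => hpairH z z' e (hDH hzD) hz'H he) hUcop
  obtain ⟨z1, hz1def⟩ : ∃ z1 : G, z1 = h * z * h⁻¹ := ⟨_, rfl⟩
  obtain ⟨z2, hz2def⟩ : ∃ z2 : G, z2 = h * z' * h⁻¹ := ⟨_, rfl⟩
  have hz1D : z1 ∈ D := by
    rw [hz1def]; exact hhU z (Subgroup.subset_closure (by simp))
  have hz2D : z2 ∈ D := by
    rw [hz2def]; exact hhU z' (Subgroup.subset_closure (by simp))
  have hz1o : orderOf z1 = c := by rw [hz1def, hordconj, hz]
  have hz2o : orderOf z2 = c := by rw [hz2def, hordconj, hz']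
  have hz12 : z1 * z2 = z2 * z1 := by
    rw [hz1def, hz2def]
    calc h * z * h⁻¹ * (h * z' * h⁻¹) = h * (z * z') * h⁻¹ := by group
      _ = h * (z' * z) * h⁻¹ := by rw [hzz']
      _ = h * z' * h⁻¹ * (h * z * h⁻¹) := by group
  have hz2n : z2 ∉ Subgroup.zpowers z1 := by
    intro hmem
    obtain ⟨i, hi⟩ := Subgroup.mem_zpowers_iff.mp hmem
    apply hz'n
    refine Subgroup.mem_zpowers_iff.mpr ⟨i, ?_⟩
    rw [hz1def, hz2def, conj_zpow] at hi
    exact mul_left_cancel (mul_right_cancel hi)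
  obtain ⟨z0, hz0E, hz01, hz0m⟩ := hE5a z1 (hDH hz1D) z2 (hDH hz2D) hz1o hz2o hz12 hz2n
  have hE5c' := hE5c z1 (hDH hz1D) z2 (hDH hz2D) hz1o hz2o hz12 hz2n
  have hED : Subgroup.closure ({z1, z2} : Set G) ≤ D := by
    refine (Subgroup.closure_le D).mpr ?_
    intro w hw
    rcases hw with rfl | hw
    · exact hz1D
    · rw [Set.mem_singleton_iff.mp hw]; exact hz2D
  have hz0D : z0 ∈ D := hED hz0E
  have hz0c : z0 ^ c = 1 :=
    closure_pair_pow hz12 (by rw [← hz1o]; exact pow_orderOf_eq_one z1)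
      (by rw [← hz2o]; exact pow_orderOf_eq_one z2) hz0E
  have hz0o : orderOf z0 = c := orderOf_eq_prime hz0c hz01
  obtain ⟨e1, he1D, he1o, he1z0, he1m⟩ :
      ∃ e1 ∈ D, orderOf e1 = c ∧ z0 * e1 = e1 * z0 ∧ e1 * m ≠ m * e1 := by
    by_cases h1 : z1 * m = m * z1
    · have h2 : ¬ z2 * m = m * z2 := fun h2 => hE5c' ⟨h1, h2⟩
      exact ⟨z2, hz2D, hz2o, (closure_pair_comm hz12.symm rfl hz0E).symm, h2⟩
    · exact ⟨z1, hz1D, hz1o, (closure_pair_comm rfl hz12 hz0E).symm, h1⟩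
  have he1c : e1 ^ c = 1 := by rw [← he1o]; exact pow_orderOf_eq_one e1
  have hcb1 : c ∣ b - 1 :=
    dvd_sub_one_of_act e1 m b c hbp hcp hm he1c
      (hmNorm e1 (hDH he1D) m (Subgroup.mem_zpowers m)) he1m
  -- E9
  have hE9 : ∀ B : Subgroup G, B ≤ D → IsPGroup b B → (∀ d ∈ D, ∀ k ∈ B, d * k * d⁻¹ ∈ B) →
      ∀ k ∈ B, z0 * k = k * z0 := by
    intro B hBD hBp hBn
    have hcB : ¬ c ∣ Nat.card B := by
      obtain ⟨n, hn⟩ := IsPGroup.iff_card.mp hBp
      rw [hn]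
      intro hd
      exact hbc ((Nat.prime_dvd_prime_iff_eq hcp hbp).mp (hcp.dvd_of_dvd_pow hd)).symm
    have hbw := Cfsg.Agent.Lib.Helper90.brauer_wielandt (p := c) z0 e1 he1z0 hz0c he1c B
      (Cfsg.Agent.Lib.Helper24.FP.mem_normalizer_of_conj_mem B z0 (hBn z0 hz0D))
      (Cfsg.Agent.Lib.Helper24.FP.mem_normalizer_of_conj_mem B e1 (hBn e1 he1D)) hcB
    unfold Cfsg.Agent.Lib.Helper90.BWFormula at hbw
    have hf : ∀ i : ℕ, B ⊓ Subgroup.centralizer ({z0 ^ i * e1} : Set G) = ⊥ := by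
      intro i
      rw [eq_bot_iff]
      intro k hk
      rw [Subgroup.mem_bot]
      by_contra hk1
      obtain ⟨hkB, hkc⟩ := Subgroup.mem_inf.mp hk
      have hkf : (z0 ^ i * e1) * k = k * (z0 ^ i * e1) :=
        Subgroup.mem_centralizer_iff.mp hkc _ rfl
      have hfm : (z0 ^ i * e1) * m ≠ m * (z0 ^ i * e1) := by
        intro hfm
        apply he1m
        have h0 : z0 ^ i * m = m * z0 ^ i := (Commute.pow_left (show Commute z0 m from hz0m) i).eq
        have h1 : z0 ^ i * (e1 * m) = z0 ^ i * (m * e1) := by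
          rw [← mul_assoc, hfm, ← mul_assoc, ← mul_assoc, h0]
        exact mul_left_cancel h1
      have hf1 : z0 ^ i * e1 ≠ 1 := by
        intro h
        apply hfm
        rw [h, one_mul, mul_one]
      have hfc : (z0 ^ i * e1) ^ c = 1 := by
        have hcm' : Commute (z0 ^ i) e1 := Commute.pow_left (show Commute z0 e1 from he1z0) i
        rw [hcm'.mul_pow, ← pow_mul, mul_comm i c, pow_mul, hz0c, one_pow, one_mul, he1c]
      have hfo : orderOf (z0 ^ i * e1) = c := orderOf_eq_prime hfc hf1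
      have hfH : z0 ^ i * e1 ∈ H := hDH (D.mul_mem (D.pow_mem hz0D i) he1D)
      obtain ⟨n0, hn0⟩ := hBp ⟨k, hkB⟩
      have hkpow : k ^ b ^ n0 = 1 := by
        have := congrArg Subtype.val hn0
        simpa using this
      obtain ⟨n, -, hn⟩ := (Nat.dvd_prime_pow hbp).mp (orderOf_dvd_of_pow_eq_one hkpow)
      have hn0' : n ≠ 0 := by
        rintro rfl
        rw [pow_zero, orderOf_eq_one_iff] at hn
        exact hk1 hn
      have hbdvd : b ∣ orderOf k := by rw [hn]; exact dvd_pow_self b hn0'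
      have hk'o : orderOf (k ^ (orderOf k / b)) = b :=
        orderOf_pow_orderOf_div (by rw [hn]; exact pow_ne_zero _ hbp.ne_zero) hbdvd
      have hk'f : k ^ (orderOf k / b) * (z0 ^ i * e1) = (z0 ^ i * e1) * k ^ (orderOf k / b) :=
        (Commute.pow_left (show Commute k (z0 ^ i * e1) from hkf.symm) _).eq
      have hk'm := hE7 _ (hDH (hBD (B.pow_mem hkB _))) _ hfH hk'o hfo hk'f
      have hk'1 : k ^ (orderOf k / b) ≠ 1 := by
        intro h
        rw [h, orderOf_one] at hk'o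
        exact hbp.ne_one hk'o.symm
      obtain ⟨j, hj⟩ := Subgroup.mem_zpowers_iff.mp (mem_zpowers_of_prime hbp hm hk'm hk'1)
      apply hfm
      rw [← hj]
      exact (Commute.zpow_right
        (show Commute (z0 ^ i * e1) (k ^ (orderOf k / b)) from hk'f.symm) j).eq
    have hf2 : B ⊓ Subgroup.centralizer ({z0, e1} : Set G) = ⊥ := by
      rw [eq_bot_iff, ← hf 0]
      exact inf_le_inf_left B (Subgroup.centralizer_le (by simp))
    rw [hf2] at hbw
    simp only [hf, Subgroup.card_bot, Finset.prod_const_one, one_pow, mul_one] at hbw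
    have hB' : B ⊓ Subgroup.centralizer ({z0} : Set G) = B :=
      Subgroup.eq_of_le_of_card_ge inf_le_left (le_of_eq hbw.symm)
    intro k hk
    have h1 : k ∈ B ⊓ Subgroup.centralizer ({z0} : Set G) := by rw [hB']; exact hk
    exact Subgroup.mem_centralizer_iff.mp h1.2 z0 rfl
  -- E10
  haveI : Group.IsSolvable G := hc.solv
  have hlayer : Cfsg.layer ↥D = ⊥ := by
    unfold Cfsg.layer
    rw [sSup_eq_bot]
    intro K hK
    exfalso
    exact Cfsg.Agent.Lib.Helper22.IsQuasisimple.not_isSolvable hK.2 inferInstance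
  by_cases hO : Cfsg.pPrimeCore b ↥D = ⊥
  · have hcent := Cfsg.Agent.Lib.Helper22.centralizer_pCore_le_of_layer_eq_bot hO hlayer
    have hBn : ∀ d ∈ D, ∀ k ∈ (Cfsg.pCore b ↥D).map D.subtype,
        d * k * d⁻¹ ∈ (Cfsg.pCore b ↥D).map D.subtype := by
      rintro d hd _ ⟨k, hk, rfl⟩
      exact ⟨⟨d, hd⟩ * k * ⟨d, hd⟩⁻¹,
        (Cfsg.Agent.Lib.Helper22.pCore_normal' b ↥D).conj_mem k hk ⟨d, hd⟩, rfl⟩
    have hB := hE9 ((Cfsg.pCore b ↥D).map D.subtype) (Subgroup.map_subtype_le _)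
      ((Cfsg.Agent.Lib.Helper22.pCore_isPGroup' b ↥D).map D.subtype) hBn
    have hz0mem : (⟨z0, hz0D⟩ : ↥D) ∈ Subgroup.centralizer (Cfsg.pCore b ↥D : Set ↥D) := by
      rw [Subgroup.mem_centralizer_iff]
      intro k hk
      apply Subtype.ext
      show (k : G) * z0 = z0 * (k : G)
      exact (hB (k : G) (Subgroup.mem_map_of_mem _ hk)).symm
    have h1 := hcent hz0mem
    obtain ⟨n, hn⟩ := (Cfsg.Agent.Lib.Helper22.pCore_isPGroup' b ↥D) ⟨⟨z0, hz0D⟩, h1⟩
    have h2 : z0 ^ b ^ n = 1 := by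
      have := congrArg (fun x : ↥(Cfsg.pCore b ↥D) => ((x : ↥D) : G)) hn
      simpa using this
    have h3 : c ∣ b ^ n := by rw [← hz0o]; exact orderOf_dvd_of_pow_eq_one h2
    exact hbc ((Nat.prime_dvd_prime_iff_eq hcp hbp).mp (hcp.dvd_of_dvd_pow h3)).symm
  · obtain ⟨C, hCdef⟩ : ∃ C : Subgroup G, C = (Cfsg.pPrimeCore b ↥D).map D.subtype := ⟨_, rfl⟩
    have hCD : C ≤ D := by rw [hCdef]; exact Subgroup.map_subtype_le _
    have hCbot : C ≠ ⊥ := by
      rw [hCdef]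
      intro h
      exact hO ((Subgroup.map_eq_bot_iff_of_injective _ D.subtype_injective).mp h)
    have hCcard : (Nat.card C).Coprime b := by
      rw [hCdef, Subgroup.card_map_of_injective D.subtype_injective]
      exact Cfsg.Agent.Lib.Helper22.card_pPrimeCore_coprime b ↥D
    have hCn : ∀ d ∈ D, ∀ k ∈ C, d * k * d⁻¹ ∈ C := by
      rw [hCdef]
      rintro d hd _ ⟨k, hk, rfl⟩
      exact ⟨⟨d, hd⟩ * k * ⟨d, hd⟩⁻¹,
        (Cfsg.Agent.Lib.Helper22.pPrimeCore_normal' b ↥D).conj_mem k hk ⟨d, hd⟩, rfl⟩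
    have hCp : IsPGroup c C := by
      have hcard : ∀ {q : ℕ}, q.Prime → q ∣ Nat.card C → q = c := by
        intro q hq hqd
        have hqH : q ∣ Nat.card H := hqd.trans (Subgroup.card_dvd_of_le (hCD.trans hDH))
        rcases hπ q (hc.Hpi q hq hqH) with h | h | h
        · exfalso
          have h1 : q ∣ Nat.card D := hqd.trans (Subgroup.card_dvd_of_le hCD)
          rw [h] at h1
          exact hap.ne_one (Nat.Coprime.eq_one_of_dvd hDa.symm h1)
        · exfalso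
          rw [h] at hqd
          exact hbp.ne_one (Nat.Coprime.eq_one_of_dvd hCcard.symm hqd)
        · exact h
      exact IsPGroup.of_card (Nat.eq_prime_pow_of_unique_prime_dvd Nat.card_pos.ne' hcard)
    have hCm : ∀ x ∈ C, x * m = m * x := by
      intro x hx
      have h1 : x * m * x⁻¹ * m⁻¹ ∈ C := by
        have h0 : x * m * x⁻¹ * m⁻¹ = x * (m * x⁻¹ * m⁻¹) := by group
        rw [h0]
        exact C.mul_mem hx (hCn m hmD x⁻¹ (C.inv_mem hx))
      have h2 : x * m * x⁻¹ * m⁻¹ ∈ Subgroup.zpowers m :=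
        Subgroup.mul_mem _ (hmNorm x (hDH (hCD hx)) m (Subgroup.mem_zpowers m))
          (Subgroup.inv_mem _ (Subgroup.mem_zpowers m))
      have h3 : C ⊓ Subgroup.zpowers m = ⊥ :=
        (Subgroup.disjoint_of_coprime_natCard
          (by rw [Nat.card_zpowers, hm]; exact hCcard)).eq_bot
      have h4 : x * m * x⁻¹ * m⁻¹ = 1 := by
        have h5 : x * m * x⁻¹ * m⁻¹ ∈ C ⊓ Subgroup.zpowers m := ⟨h1, h2⟩
        rwa [h3, Subgroup.mem_bot] at h5
      calc x * m = x * m * x⁻¹ * m⁻¹ * (m * x) := by group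
        _ = m * x := by rw [h4, one_mul]
    obtain ⟨zc, hzcC, hzco, hzcc⟩ := exists_central_of_pgroup hcp C hCp hCbot
    have hzcH : zc ∈ H := hDH (hCD hzcC)
    have hC4 : ∀ z'' ∈ C, orderOf z'' = c → z'' ∈ Subgroup.zpowers zc := by
      intro z'' hz'' hz''o
      by_contra hnot
      exact hE5c zc hzcH z'' (hDH (hCD hz'')) hzco hz''o (hzcc z'' hz'') hnot
        ⟨hCm zc hzcC, hCm z'' hz''⟩
    have hyfz : yf * zc * yf⁻¹ ∈ Subgroup.zpowers zc :=
      hC4 _ (hCn yf hyfD zc hzcC) (by rw [hordconj, hzco])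
    have hnb : ¬ b ∣ c - 1 := by
      intro hd
      have h1 : c ≤ b - 1 := Nat.le_of_dvd (Nat.sub_pos_of_lt hbp.one_lt) hcb1
      have h2 : b ≤ c - 1 := Nat.le_of_dvd (Nat.sub_pos_of_lt hcp.one_lt) hd
      omega
    have hcomm : yf * zc = zc * yf := by
      by_contra hne
      exact hnb (dvd_sub_one_of_act yf zc c b hcp hbp hzco
        (by rw [← hyfo]; exact pow_orderOf_eq_one yf) hyfz hne)
    have h5 := hE7 yf (hDH hyfD) zc hzcH hyfo hzco hcomm
    exact hR10 yf h5 hyf1 hyff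

/-- **P7 (PkgE)**: in the faithful case every minimal normal subgroup of `H` is cyclic. -/
theorem pkgE : PkgE.{u} := by
  intro _hF hT1 hC1a hC1b hT3 hM hNF G _ V H t π hc hfa N hN
  by_contra hcyc
  haveI : Finite G := hc.fin
  haveI : Group.IsSolvable G := hc.solv
  obtain ⟨⟨hNH, hNn⟩, hNbot, hNmin⟩ := hN
  -- `N` is abelian
  have hNab : ∀ x ∈ N, ∀ x' ∈ N, x * x' = x' * x := by
    have hle : ⁅N, N⁆ ≤ N := Subgroup.commutator_le_self N
    have hcn : ∀ h ∈ H, ∀ x ∈ ⁅N, N⁆, h * x * h⁻¹ ∈ ⁅N, N⁆ := by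
      intro h hh
      have hle' : ⁅N, N⁆ ≤ (⁅N, N⁆ : Subgroup G).comap (MulAut.conj h).toMonoidHom := by
        rw [Subgroup.commutator_le]
        intro g₁ hg₁ g₂ hg₂
        simp only [Subgroup.mem_comap, MulEquiv.coe_toMonoidHom, MulAut.conj_apply]
        have h1 : h * ⁅g₁, g₂⁆ * h⁻¹ = ⁅h * g₁ * h⁻¹, h * g₂ * h⁻¹⁆ := by
          simp only [commutatorElement_def]; group
        rw [h1]
        exact Subgroup.commutator_mem_commutator (hNn h hh g₁ hg₁) (hNn h hh g₂ hg₂)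
      intro x hx
      have h2 := hle' hx
      simpa only [Subgroup.mem_comap, MulEquiv.coe_toMonoidHom, MulAut.conj_apply] using h2
    have hbot : ⁅N, N⁆ = ⊥ := by
      by_contra hne
      have heq : ⁅N, N⁆ = N := hNmin ⁅N, N⁆ ⟨hle.trans hNH, hcn⟩ hle hne
      haveI hnt : Nontrivial ↥N := (Subgroup.nontrivial_iff_ne_bot N).2 hNbot
      have hlt : commutator ↥N < ⊤ := Group.IsSolvable.commutator_lt_top_of_nontrivial ↥N
      have hNcard : Nat.card ↥(⁅N, N⁆ : Subgroup G) = Nat.card ↥(commutator ↥N) := by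
        rw [← Subgroup.map_subtype_commutator]
        exact (Nat.card_congr
          (Subgroup.equivMapOfInjective _ _ N.subtype_injective).toEquiv).symm
      rw [heq] at hNcard
      exact hlt.ne ((Subgroup.card_eq_iff_eq_top _).1 hNcard.symm)
    intro x hx x' hx'
    have h1 := (Subgroup.commutator_eq_bot_iff_le_centralizer.mp hbot) hx
    exact (Subgroup.mem_centralizer_iff.mp h1 x' hx').symm
  -- a prime `a` dividing `|N|`
  have hNcard1 : Nat.card N ≠ 1 := fun h => hNbot (Subgroup.card_eq_one.mp h)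
  obtain ⟨a, hap, hadvd⟩ := Nat.exists_prime_and_dvd hNcard1
  haveI : Fact a.Prime := ⟨hap⟩
  have ha : a ∈ π := hc.Hpi a hap (hadvd.trans (Subgroup.card_dvd_of_le hNH))
  -- `N` has exponent `a`
  have hNexp : ∀ x ∈ N, x ^ a = 1 := by
    let Ω : Subgroup G :=
      { carrier := {x | x ∈ N ∧ x ^ a = 1}
        mul_mem' := by
          rintro x x' ⟨hx, hxa⟩ ⟨hx', hx'a⟩
          exact ⟨N.mul_mem hx hx', by
            rw [(show Commute x x' from hNab x hx x' hx').mul_pow, hxa, hx'a, one_mul]⟩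
        one_mem' := ⟨N.one_mem, one_pow a⟩
        inv_mem' := by
          rintro x ⟨hx, hxa⟩
          exact ⟨N.inv_mem hx, by rw [inv_pow, hxa, inv_one]⟩ }
    have hΩN : Ω ≤ N := fun x hx => hx.1
    have hΩn : NormIn Ω H :=
      ⟨hΩN.trans hNH, fun h hh x hx =>
        ⟨hNn h hh x hx.1, by rw [conj_pow, hx.2, mul_one, mul_inv_cancel]⟩⟩
    have hΩbot : Ω ≠ ⊥ := by
      obtain ⟨x, hx⟩ := exists_prime_orderOf_dvd_card' a hadvd
      have hxo : orderOf (x : G) = a := by rw [Subgroup.orderOf_coe]; exact hx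
      intro h
      have hxΩ : (x : G) ∈ Ω := ⟨x.2, by rw [← hxo]; exact pow_orderOf_eq_one _⟩
      rw [h, Subgroup.mem_bot] at hxΩ
      rw [hxΩ, orderOf_one] at hxo
      exact hap.ne_one hxo.symm
    have hΩ : Ω = N := hNmin Ω hΩn hΩN hΩbot
    intro x hx
    have hxΩ : x ∈ Ω := by rw [hΩ]; exact hx
    exact hxΩ.2
  have hNpg : IsPGroup a N := by
    intro g
    refine ⟨1, ?_⟩
    rw [pow_one]
    apply Subtype.ext
    simpa using hNexp g.1 g.2
  -- a `C_a × C_a` in `N`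
  obtain ⟨x, hxN, hx1⟩ : ∃ x ∈ N, x ≠ 1 := by
    by_contra hcon
    push_neg at hcon
    exact hNbot ((Subgroup.eq_bot_iff_forall N).mpr hcon)
  have hxo : orderOf x = a := orderOf_eq_prime (hNexp x hxN) hx1
  obtain ⟨x', hx'N, hx'n⟩ : ∃ x' ∈ N, x' ∉ Subgroup.zpowers x := by
    by_contra hcon
    push_neg at hcon
    apply hcyc
    exact ⟨x, hxN, le_antisymm hcon ((Subgroup.zpowers_le).mpr hxN)⟩
  have hx'1 : x' ≠ 1 := fun h => hx'n (h ▸ Subgroup.one_mem _)
  have hx'o : orderOf x' = a := orderOf_eq_prime (hNexp x' hx'N) hx'1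
  obtain ⟨x0, hx0E, hx01, hx0f⟩ :=
    hT1 hc a ha x (hNH hxN) x' (hNH hx'N) hxo hx'o (hNab x hxN x' hx'N) hx'n
  have hx0N : x0 ∈ N := by
    refine (Subgroup.closure_le N).mpr ?_ hx0E
    intro w hw
    rcases hw with rfl | hw
    · exact hxN
    · rw [Set.mem_singleton_iff.mp hw]; exact hx'N
  have hx0 : orderOf x0 = a := orderOf_eq_prime (hNexp x0 hx0N) hx01
  -- the other two primes
  obtain ⟨b, hb, c, hcπ, hab, hac, hbc, hπ⟩ := three π hc.card3 a ha
  have hbp : b.Prime := hc.piprime b hb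
  have hcp : c.Prime := hc.piprime c hcπ
  obtain ⟨kN, hkN⟩ := IsPGroup.iff_card.mp hNpg
  have hbN : ¬ b ∣ Nat.card N := by
    rw [hkN]
    intro hd
    exact hab ((Nat.prime_dvd_prime_iff_eq hbp hap).mp (hbp.dvd_of_dvd_pow hd)).symm
  have hcN : ¬ c ∣ Nat.card N := by
    rw [hkN]
    intro hd
    exact hac ((Nat.prime_dvd_prime_iff_eq hcp hap).mp (hcp.dvd_of_dvd_pow hd)).symm
  -- a Hall `a'`-subgroup `D` of `H`
  obtain ⟨mm, nn, hHcard, hma⟩ : ∃ mm nn : ℕ, Nat.card H = mm * a ^ nn ∧ mm.Coprime a :=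
    ⟨Nat.card H / a ^ (Nat.card H).factorization a, (Nat.card H).factorization a,
      (Nat.div_mul_cancel (Nat.ordProj_dvd _ _)).symm,
      (Nat.coprime_ordCompl hap Nat.card_pos.ne').symm⟩
  have hmn : mm.Coprime (a ^ nn) := Nat.Coprime.pow_right _ hma
  haveI : Group.IsSolvable ↥H := inferInstance
  obtain ⟨D, hDH, hDcard⟩ := Cfsg.Agent.S3745.hall_ex_in (G := H) hHcard hmn
  have hDa : (Nat.card D).Coprime a := by rw [hDcard]; exact hma
  have hconj : ∀ U : Subgroup G, U ≤ H → (Nat.card U).Coprime a →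
      ∃ h ∈ H, ∀ u ∈ U, h * u * h⁻¹ ∈ D := by
    intro U hU hUa
    obtain ⟨D', hD'H, hD'c, hUD'⟩ :=
      Cfsg.Agent.S3745.hall_le_in (G := H) hHcard hmn hU (Nat.Coprime.pow_right _ hUa)
    obtain ⟨g, hg, hgD⟩ :=
      Cfsg.Agent.S3745.hall_conj_in (G := H) hHcard hmn hD'H hDH hD'c hDcard
    refine ⟨g, hg, fun u hu => ?_⟩
    rw [← hgD]
    have h1 := Subgroup.smul_mem_pointwise_smul u (MulAut.conj g) D' (hUD' hu)
    simpa [MulAut.smul_def] using h1
  -- an element of order `b c` in `D`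
  obtain ⟨g, hgH, hgo⟩ := hc.pair b hb c hcπ hbc
  have hgcop : (Nat.card (Subgroup.zpowers g)).Coprime a := by
    rw [Nat.card_zpowers, hgo]
    exact Nat.Coprime.mul_left ((Nat.coprime_primes hbp hap).mpr hab.symm)
      ((Nat.coprime_primes hcp hap).mpr hac.symm)
  obtain ⟨h, hh, hhD⟩ := hconj _ ((Subgroup.zpowers_le).mpr hgH) hgcop
  obtain ⟨g1, hg1def⟩ : ∃ g1 : G, g1 = h * g * h⁻¹ := ⟨_, rfl⟩
  have hg1D : g1 ∈ D := by rw [hg1def]; exact hhD g (Subgroup.mem_zpowers g)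
  have hg1 : orderOf g1 = b * c := by
    rw [hg1def]
    have h1 := (MulAut.conj h).orderOf_eq g
    rw [MulAut.conj_apply] at h1
    rw [h1, hgo]
  have hyo : orderOf (g1 ^ c) = b := by
    have h1 := orderOf_pow_orderOf_div (x := g1) (n := b)
      (by rw [hg1]; exact Nat.mul_ne_zero hbp.ne_zero hcp.ne_zero)
      (by rw [hg1]; exact dvd_mul_right b c)
    rwa [hg1, Nat.mul_div_cancel_left c hbp.pos] at h1
  have hzo : orderOf (g1 ^ b) = c := by
    have h1 := orderOf_pow_orderOf_div (x := g1) (n := c)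
      (by rw [hg1]; exact Nat.mul_ne_zero hbp.ne_zero hcp.ne_zero)
      (by rw [hg1]; exact dvd_mul_left c b)
    rwa [hg1, Nat.mul_div_cancel b hcp.pos] at h1
  have hyz : g1 ^ c * g1 ^ b = g1 ^ b * g1 ^ c := ((Commute.refl g1).pow_pow c b).eq
  have hyD : g1 ^ c ∈ D := D.pow_mem hg1D c
  have hzD : g1 ^ b ∈ D := D.pow_mem hg1D b
  rcases hM hc hfa b hb c hcπ a ha hbc hac.symm hab.symm (g1 ^ c) (hDH hyD) (g1 ^ b) (hDH hzD)
      hyo hzo hyz N hNH hNpg hNbot (fun k hk => hNn _ (hDH hyD) k hk)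
      (fun k hk => hNn _ (hDH hzD) k hk) with ⟨_, _, hyfree, hzfix⟩ | ⟨_, _, hzfree, hyfix⟩
  · have hyN := hT3 hc hfa b hb (g1 ^ c) (hDH hyD) hyo hyfree N hNH hNab hbN
      (fun k hk => hNn _ (hDH hyD) k hk)
    exact core hT1 hC1a hC1b hT3 hM hNF hc hfa N hNH hNn hNab a b c hNexp ha hb hcπ hab hac hbc
      hπ x0 hx0N hx0 hx0f D hDH hDa hconj g1 hg1D hg1 (g1 ^ c) (g1 ^ b) hyD hzD hyo hzo hyN hzfix
  · have hzN := hT3 hc hfa c hcπ (g1 ^ b) (hDH hzD) hzo hzfree N hNH hNab hcN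
      (fun k hk => hNn _ (hDH hzD) k hk)
    exact core hT1 hC1a hC1b hT3 hM hNF hc hfa N hNH hNn hNab a c b hNexp ha hcπ hb hac hab
      hbc.symm (fun p hp => by rcases hπ p hp with h | h | h <;> simp [h]) x0 hx0N hx0 hx0f D
      hDH hDa hconj g1 hg1D (by rw [hg1, mul_comm]) (g1 ^ b) (g1 ^ c) hzD hyD hzo hyo hzN hyfix

end Cfsg.Agent.Lib.Helper22.FP
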